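import Mathlib
import Cfsg.Agent.PGroup.Frattini

/-! Fixed points of elementary abelian groups of coprime automorphisms. -/

set_option autoImplicit false
set_option linter.style.haveILetI false

open Subgroup

namespace Cfsg.Agent.OrbitCover

variable {H V : Type*} [Group H] [CommGroup V] (ρ : H →* MulAut V)

theorem rho_mul (a b : H) (v : V) : ρ (a * b) v = ρ a (ρ b v) := by rw [map_mul, MulAut.mul_apply]

theorem rho_one (v : V) : ρ 1 v = v := by rw [map_one, MulAut.one_apply]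

/-- Fixed points of a subgroup. -/
def fixSub (K : Subgroup H) : Subgroup V where
  carrier := {v | ∀ k ∈ K, ρ k v = v}
  one_mem' := fun k _ => map_one (ρ k)
  mul_mem' := fun {a b} ha hb k hk => by rw [map_mul, ha k hk, hb k hk]
  inv_mem' := fun {a} ha k hk => by rw [map_inv, ha k hk]

theorem mem_fixSub {K : Subgroup H} {v : V} : v ∈ fixSub ρ K ↔ ∀ k ∈ K, ρ k v = v := Iff.rfl

theorem fixSub_mono {K L : Subgroup H} (h : K ≤ L) : fixSub ρ L ≤ fixSub ρ K :=
  fun _ hv k hk => hv k (h hk)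

theorem mem_fixSub_sup {K L : Subgroup H} {v : V} (hK : v ∈ fixSub ρ K) (hL : v ∈ fixSub ρ L) :
    v ∈ fixSub ρ (K ⊔ L) := by
  let S : Subgroup H :=
    { carrier := {h | ρ h v = v}
      one_mem' := rho_one ρ v
      mul_mem' := fun {a b} (ha : ρ a v = v) (hb : ρ b v = v) => by
        show ρ (a * b) v = v
        rw [rho_mul, hb, ha]
      inv_mem' := fun {a} (ha : ρ a v = v) => by
        show ρ a⁻¹ v = v
        nth_rewrite 1 [← ha]
        rw [← rho_mul, inv_mul_cancel, rho_one] }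
  exact fun k hk => (sup_le (fun x hx => hK x hx) (fun x hx => hL x hx) : K ⊔ L ≤ S) hk

theorem smul_mem_fixSub {K : Subgroup H} {g : H} (hg : ∀ k ∈ K, g⁻¹ * k * g ∈ K) {v : V}
    (hv : v ∈ fixSub ρ K) : ρ g v ∈ fixSub ρ K := by
  intro k hk
  rw [← rho_mul, show k * g = g * (g⁻¹ * k * g) by group, rho_mul, hv _ (hg k hk)]

/-- Product over a finite subgroup. -/
noncomputable def avg [Finite H] (K : Subgroup H) : V →* V where
  toFun v := letI := Fintype.ofFinite K; ∏ k : K, ρ k v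
  map_one' := by
    letI := Fintype.ofFinite K
    exact Finset.prod_eq_one fun k _ => map_one _
  map_mul' a b := by
    letI := Fintype.ofFinite K
    simp only [map_mul, Finset.prod_mul_distrib]

variable [Finite H]

theorem avg_of_fixed {K : Subgroup H} {v : V} (hv : v ∈ fixSub ρ K) :
    avg ρ K v = v ^ Nat.card K := by
  letI := Fintype.ofFinite K
  show ∏ k : K, ρ k v = _
  rw [Finset.prod_congr rfl (g := fun _ => v) (fun (k : K) _ => hv (k : H) k.2), Finset.prod_const,
    Finset.card_univ, ← Nat.card_eq_fintype_card]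

theorem avg_mem (K : Subgroup H) (v : V) : avg ρ K v ∈ fixSub ρ K := by
  intro l hl
  letI := Fintype.ofFinite K
  show ρ l (∏ k : K, ρ k v) = ∏ k : K, ρ k v
  rw [map_prod]
  refine Fintype.prod_equiv (Equiv.mulLeft (⟨l, hl⟩ : K)) _ _ fun k => ?_
  rw [← rho_mul]
  rfl

theorem avg_comm_mem {K L : Subgroup H} (hc : ∀ l ∈ L, ∀ k ∈ K, l * k = k * l) {v : V}
    (hv : v ∈ fixSub ρ L) : avg ρ K v ∈ fixSub ρ L := by
  intro l hl
  letI := Fintype.ofFinite K
  show ρ l (∏ k : K, ρ k v) = ∏ k : K, ρ k v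
  rw [map_prod]
  refine Finset.prod_congr rfl fun k _ => ?_
  rw [← rho_mul, hc l hl k k.2, rho_mul, hv l hl]

section Elementary

variable {p : ℕ} [hp : Fact p.Prime] [Finite V] {B : Subgroup H}

theorem isCoatom_of_relIndex {K : Subgroup H} (hKB : K ≤ B) (hK : K.relIndex B = p)
    {L : Subgroup H} (hKL : K ≤ L) (hLB : L ≤ B) : L = K ∨ L = B := by
  have h := relIndex_mul_relIndex K L B hKL hLB
  rw [hK] at h
  rcases (Nat.dvd_prime hp.out).1 (Dvd.intro _ h) with h1 | h1
  · exact Or.inl (le_antisymm (relIndex_eq_one.1 h1) hKL)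
  · refine Or.inr (le_antisymm hLB (relIndex_eq_one.1 ?_))
    rw [h1] at h
    exact Nat.eq_of_mul_eq_mul_left hp.out.pos (h.trans (mul_one p).symm)

variable (hpV : ¬ p ∣ Nat.card V) (hBp : IsPGroup p B) (hBc : ∀ x ∈ B, ∀ y ∈ B, x * y = y * x)
  (hB : fixSub ρ B = ⊥)

include hpV hBp hBc hB in
theorem indep {ι : Type*} [Fintype ι] (K : ι → Subgroup H) (hKinj : Function.Injective K)
    (hKB : ∀ i, K i ≤ B) (hKp : ∀ i, (K i).relIndex B = p) (f : ι → V)
    (hf : ∀ i, f i ∈ fixSub ρ (K i)) (h1 : ∏ i, f i = 1) : ∀ i, f i = 1 := by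
  classical
  intro i
  have h2 : avg ρ (K i) (∏ j, f j) = 1 := by rw [h1, map_one]
  rw [map_prod, Finset.prod_eq_single i] at h2
  · rw [avg_of_fixed ρ (hf i)] at h2
    obtain ⟨k, hk⟩ := IsPGroup.iff_card.1 (hBp.to_le (hKB i))
    rw [hk] at h2
    rw [← orderOf_eq_one_iff]
    refine Nat.eq_one_of_dvd_coprimes ?_ (orderOf_dvd_natCard (f i)) (orderOf_dvd_of_pow_eq_one h2)
    exact (Nat.Coprime.pow_right k ((hp.out.coprime_iff_not_dvd.2 hpV).symm))
  · intro j _ hji
    have hmem : avg ρ (K i) (f j) ∈ fixSub ρ (K i ⊔ K j) :=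
      mem_fixSub_sup ρ (avg_mem ρ _ _)
        (avg_comm_mem ρ (fun l hl k hk => hBc l (hKB j hl) k (hKB i hk)) (hf j))
    have hsup : K i ⊔ K j = B := by
      rcases isCoatom_of_relIndex (hKB i) (hKp i) (le_sup_left : K i ≤ K i ⊔ K j)
        (sup_le (hKB i) (hKB j)) with h | h
      · exfalso
        rcases isCoatom_of_relIndex (hKB j) (hKp j) (sup_eq_left.1 h : K j ≤ K i) (hKB i) with
          h' | h'
        · exact hji (hKinj h').symm
        · have := hKp i
          rw [h', relIndex_self] at this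
          exact hp.out.one_lt.ne this
      · exact h
    rw [hsup, hB, mem_bot] at hmem
    exact hmem
  · simp

include hpV hBp hBc hB in
theorem card_pow_le {ι : Type*} [Fintype ι] (K : ι → Subgroup H) (hKinj : Function.Injective K)
    (hKB : ∀ i, K i ≤ B) (hKp : ∀ i, (K i).relIndex B = p) {c : ℕ}
    (hc : ∀ i, Nat.card (fixSub ρ (K i)) = c) : c ^ Fintype.card ι ≤ Nat.card V := by
  have hinj : Function.Injective (fun (f : ∀ i, fixSub ρ (K i)) => ∏ i, (f i : V)) := by
    intro f g hfg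
    funext i
    have := indep ρ hpV hBp hBc hB K hKinj hKB hKp (fun i => (f i : V) / (g i : V))
      (fun i => (fixSub ρ (K i)).div_mem (f i).2 (g i).2)
      (by rw [Finset.prod_div_distrib]; exact div_eq_one.2 hfg) i
    exact Subtype.ext (div_eq_one.1 this)
  have h := Nat.card_le_card_of_injective _ hinj
  rw [Nat.card_pi, Finset.prod_congr rfl (fun i _ => hc i), Finset.prod_const,
    Finset.card_univ] at h
  exact h

variable (hBe : ∀ x ∈ B, x ^ p = 1)

include hpV hBp hBc hBe hB in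
theorem exists_relIndex_fix [Nontrivial V] :
    ∃ K : Subgroup H, K ≤ B ∧ K.relIndex B = p ∧ fixSub ρ K ≠ ⊥ := by
  classical
  have hbot : fixSub ρ (⊥ : Subgroup H) ≠ ⊥ := by
    obtain ⟨v, hv⟩ := exists_ne (1 : V)
    intro h
    have : v ∈ fixSub ρ (⊥ : Subgroup H) := by
      intro k hk
      rw [mem_bot.1 hk, rho_one]
    rw [h, mem_bot] at this
    exact hv this
  obtain ⟨K, -, hKmax⟩ := Finite.exists_le_maximal (a := (⊥ : Subgroup H))
    (p := fun K : Subgroup H => K ≤ B ∧ fixSub ρ K ≠ ⊥) ⟨bot_le, hbot⟩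
  obtain ⟨⟨hKB, hKne⟩, hmax⟩ := hKmax
  refine ⟨K, hKB, ?_, hKne⟩
  have hmax' : ∀ x ∈ B, x ∉ K → fixSub ρ (K ⊔ zpowers x) = ⊥ := fun x hx hxK => by
    by_contra h
    exact hxK (hmax ⟨sup_le hKB (zpowers_le.2 hx), h⟩ le_sup_left (mem_sup_right (mem_zpowers x)))
  have hKneB : K ≠ B := fun h => hKne (h ▸ hB)
  have hco : IsCoatom (K.subgroupOf B) → K.relIndex B = p := fun h =>
    Cfsg.Agent.PGroup.index_of_isCoatom hBp h
  by_cases hc : ∀ b ∈ B, b ∉ K → K ⊔ zpowers b = B
  · refine hco ⟨fun h => hKneB (le_antisymm hKB (subgroupOf_eq_top.1 h)), fun L hL => ?_⟩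
    obtain ⟨b, hbL, hbK⟩ := SetLike.exists_of_lt hL
    rw [mem_subgroupOf] at hbK
    rw [eq_top_iff]
    intro x _
    have hle : K ⊔ zpowers (b : H) ≤ L.map B.subtype := by
      refine sup_le (fun k hk => ⟨⟨k, hKB hk⟩, hL.le hk, rfl⟩) (zpowers_le.2 ⟨b, hbL, rfl⟩)
    rw [hc b b.2 hbK] at hle
    obtain ⟨y, hy, hyx⟩ := hle x.2
    rwa [← Subtype.ext hyx]
  exfalso
  push Not at hc
  obtain ⟨b, hbB, hbK, hne⟩ := hc
  obtain ⟨c, hcB, hcK2⟩ := SetLike.exists_of_lt
    (lt_of_le_of_ne (sup_le hKB (zpowers_le.2 hbB)) hne)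
  apply hKne
  rw [eq_bot_iff]
  intro w hw
  rw [mem_bot]
  set F : H → V := fun x => ρ x w
  have hFfix : ∀ x ∈ B, F x ∈ fixSub ρ K := fun x hx =>
    smul_mem_fixSub ρ (fun k hk => by
      rw [mul_assoc, hBc k (hKB hk) x hx, inv_mul_cancel_left]; exact hk) hw
  have hcomm : Commute b c := hBc b hbB c hcB
  have hbp := hBe b hbB
  have hcp := hBe c hcB
  have hline : ∀ x ∈ B, x ∉ K → ∏ j : ZMod p, F (x ^ j.val) = 1 := by
    intro x hx hxK
    have hxp := hBe x hx
    have hxv : ∀ j : ZMod p, x * x ^ j.val = x ^ (j + 1).val := by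
      intro j
      rw [← pow_succ', pow_eq_pow_mod _ hxp, ZMod.val_add, ZMod.val_one]
    have hfix : ρ x (∏ j : ZMod p, F (x ^ j.val)) = ∏ j : ZMod p, F (x ^ j.val) := by
      rw [map_prod]
      refine Fintype.prod_equiv (Equiv.addRight (1 : ZMod p)) _ _ fun j => ?_
      show ρ x (ρ _ w) = ρ _ w
      rw [← rho_mul, hxv]
      rfl
    have hmem : ∏ j : ZMod p, F (x ^ j.val) ∈ fixSub ρ (K ⊔ zpowers x) := by
      refine mem_fixSub_sup ρ (Subgroup.prod_mem _ fun j _ => hFfix _ (pow_mem hx _)) ?_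
      intro k hk
      obtain ⟨n, rfl⟩ := mem_zpowers_iff.1 hk
      let S : Subgroup H :=
        { carrier := {h | ρ h (∏ j : ZMod p, F (x ^ j.val)) = ∏ j : ZMod p, F (x ^ j.val)}
          one_mem' := rho_one ρ _
          mul_mem' := fun {a b} (ha : ρ a _ = _) (hb : ρ b _ = _) => by
            show ρ (a * b) _ = _
            rw [rho_mul, hb, ha]
          inv_mem' := fun {a} (ha : ρ a _ = _) => by
            show ρ a⁻¹ _ = _
            nth_rewrite 1 [← ha]
            rw [← rho_mul, inv_mul_cancel, rho_one] }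
      exact S.zpow_mem hfix n
    rwa [hmax' x hx hxK, mem_bot] at hmem
  have hbc : ∀ i : ZMod p, b * c ^ i.val ∉ K := by
    intro i h
    by_cases hi : i = 0
    · subst hi; exact hbK (by simpa using h)
    · apply hcK2
      have h' : c ^ i.val ∈ K ⊔ zpowers b := by
        have := mul_mem (inv_mem (mem_sup_right (mem_zpowers b) : b ∈ K ⊔ zpowers b))
          (mem_sup_left h)
        rwa [inv_mul_cancel_left] at this
      have := pow_mem h' (i⁻¹ : ZMod p).val
      rw [← pow_mul, pow_eq_pow_mod _ hcp, ← ZMod.val_mul, mul_inv_cancel₀ hi, ZMod.val_one,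
        pow_one] at this
      exact this
  have hpt : ∀ i j : ZMod p, (b * c ^ i.val) ^ j.val = b ^ j.val * c ^ (i * j).val := by
    intro i j
    rw [(hcomm.pow_right _).mul_pow, ← pow_mul, pow_eq_pow_mod (i.val * j.val) hcp, ← ZMod.val_mul]
  -- everything
  have hall : ∏ j : ZMod p, ∏ k : ZMod p, F (b ^ j.val * c ^ k.val) = 1 := by
    refine Finset.prod_eq_one fun j _ => ?_
    have h := congrArg (ρ (b ^ j.val)) (hline c hcB (fun h => hcK2 (mem_sup_left h)))
    rw [map_prod, map_one] at h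
    rw [← h]
    exact Finset.prod_congr rfl fun k _ => rho_mul ρ _ _ w
  have hsum : ∏ j : ZMod p, ∏ i : ZMod p, F (b ^ j.val * c ^ (i * j).val) = 1 := by
    rw [Finset.prod_comm]
    refine Finset.prod_eq_one fun i _ => ?_
    have h := hline _ (mul_mem hbB (pow_mem hcB _)) (hbc i)
    simp only [hpt] at h
    exact h
  rw [← Finset.mul_prod_erase _ _ (Finset.mem_univ (0 : ZMod p))] at hsum hall
  have hrest : ∏ j ∈ (Finset.univ : Finset (ZMod p)).erase 0,
      ∏ i : ZMod p, F (b ^ j.val * c ^ (i * j).val) =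
      ∏ j ∈ (Finset.univ : Finset (ZMod p)).erase 0,
      ∏ k : ZMod p, F (b ^ j.val * c ^ k.val) := by
    refine Finset.prod_congr rfl fun j hj => ?_
    exact Fintype.prod_equiv (Equiv.mulRight₀ j (Finset.ne_of_mem_erase hj)) _ _ fun i => rfl
  have hzero : ∏ k : ZMod p, F (b ^ (0 : ZMod p).val * c ^ k.val) = 1 := by
    simp only [ZMod.val_zero, pow_zero, one_mul]
    exact hline c hcB (fun h => hcK2 (mem_sup_left h))
  rw [hzero, one_mul] at hall
  rw [hrest, hall, mul_one] at hsum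
  have hwp : w ^ p = 1 := by
    rw [← hsum]
    simp [F]
  rw [← orderOf_eq_one_iff]
  exact Nat.eq_one_of_dvd_coprimes ((hp.out.coprime_iff_not_dvd.2 hpV).symm)
    (orderOf_dvd_natCard w) (orderOf_dvd_of_pow_eq_one hwp)

end Elementary

end Cfsg.Agent.OrbitCover
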