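import Mathlib
import Cfsg.Agent.OrbitCover.Fix
import Cfsg.Agent.PGroup.ClassTwo
import Cfsg.Agent.PGroup.Basic

/-! `p`-groups all of whose characteristic elementary abelian subgroups are cyclic, generated by
elements of order `p`, and their regular orbits on coprime modules. -/

set_option autoImplicit false
set_option linter.style.haveILetI false

open Subgroup
open scoped commutatorElement

namespace Cfsg.Agent.OrbitCover

variable {G : Type*} [Group G] [Finite G] {p : ℕ} [hp : Fact p.Prime]

theorem classTwo_exponent (hG : IsPGroup p G) (hp2 : p ≠ 2) {S : Set G} (hS : closure S = ⊤)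
    (hSp : ∀ s ∈ S, s ^ p = 1)
    (hsmall : ∀ D : Subgroup G, D.Characteristic → (∀ x ∈ D, ∀ y ∈ D, x * y = y * x) →
      (∀ x ∈ D, x ^ p = 1) → Nat.card D ≤ p) :
    commutator G ≤ center G ∧ (∀ x : G, x ^ p = 1) ∧ Nat.card (center G) ≤ p := by
  classical
  have hodd : Odd p := hp.out.odd_of_ne_two hp2
  haveI := hG.isNilpotent
  obtain ⟨c, hc⟩ := Subgroup.nilpotent_iff_lowerCentralSeries.1 (inferInstance : Group.IsNilpotent G)
  set L : ℕ → Subgroup G := fun i => (⊤ : Subgroup G).lowerCentralSeries i with hL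
  have hdesc : ∀ i, L (i + 2) ≤ center G → L (i + 1) ≤ center G := by
    intro i hi
    have hcomm1 : ∀ d ∈ L (i + 1), ∀ x : G, ⁅d, x⁆ ∈ center G := fun d hd x =>
      hi (commutator_mem_commutator hd (mem_top x))
    have hle1 : L (i + 1) ≤ commutator G := by
      rw [← top_lowerCentralSeries_one]
      exact Subgroup.lowerCentralSeries_antitone _ (Nat.le_add_left 1 i)
    have hab : ⁅commutator G, L (i + 1)⁆ = ⊥ := by
      rw [_root_.commutator_def]
      have h0 : ⁅L (i + 2), (⊤ : Subgroup G)⁆ = ⊥ :=
        commutator_eq_bot_iff_le_centralizer.2 (hi.trans (by rw [coe_top, centralizer_univ]))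
      have hx : ⁅L (i + 1), (⊤ : Subgroup G)⁆ = L (i + 2) := rfl
      refine commutator_commutator_eq_bot_of_rotate ?_ ?_
      · rw [commutator_comm ⊤ (L (i + 1)), hx]; exact h0
      · rw [hx]; exact h0
    have habD : ∀ x ∈ L (i + 1), ∀ y ∈ L (i + 1), x * y = y * x := by
      intro x hx y hy
      have h := commutator_eq_bot_iff_le_centralizer.1 hab (hle1 hx)
      exact (h y hy).symm
    have hexpD : ∀ x ∈ L (i + 1), x ^ p = 1 := by
      have hgen : ∀ y ∈ L i, ∀ x : G, ⁅y, x⁆ ^ p = 1 := by
        intro y hy x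
        have hx : x ∈ closure S := hS ▸ mem_top x
        induction hx using Subgroup.closure_induction with
        | mem b hb =>
          set g := ⁅y, b⁆ with hg
          have hgD : g ∈ L (i + 1) := commutator_mem_commutator hy (mem_top b)
          have hbg : ⁅b, g⁆ ∈ center G := by
            rw [← commutatorElement_inv]; exact inv_mem (hcomm1 g hgD b)
          have hpow : ⁅b, g⁆ ^ p = 1 := Cfsg.Agent.PGroup.commutatorElement_pow_eq_one hbg
            (by rw [hSp b hb]; exact one_mem _)
          have h := Cfsg.Agent.PGroup.mul_pow_of_odd hodd hbg hpow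
          have e : g * b = y * b * y⁻¹ := by rw [hg, commutatorElement_def]; group
          rw [e, conj_pow, hSp b hb, mul_one, mul_inv_cancel, mul_one] at h
          exact h.symm
        | one => rw [commutatorElement_one_right, one_pow]
        | mul a b _ _ ha hb =>
          have e : ⁅y, a * b⁆ = ⁅y, a⁆ * (a * ⁅y, b⁆ * a⁻¹) := by
            simp only [commutatorElement_def]; group
          have h1 : ⁅y, a⁆ ∈ L (i + 1) := commutator_mem_commutator hy (mem_top a)
          have h2 : a * ⁅y, b⁆ * a⁻¹ ∈ L (i + 1) :=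
            Normal.conj_mem inferInstance _ (commutator_mem_commutator hy (mem_top b)) a
          rw [e, (show Commute _ _ from habD _ h1 _ h2).mul_pow, ha, conj_pow, hb]
          group
        | inv a _ ha =>
          have e : ⁅y, a⁻¹⁆ = a⁻¹ * ⁅y, a⁆⁻¹ * a := by simp only [commutatorElement_def]; group
          rw [e, show a = a⁻¹⁻¹ from (inv_inv a).symm]
          simp only [inv_inv]
          have := conj_pow (a := a⁻¹) (b := ⁅y, a⁆⁻¹) (i := p)
          rw [inv_inv] at this
          rw [this, inv_pow, ha, inv_one, mul_one, inv_mul_cancel]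
      intro x hx
      have hx' : x ∈ closure {z | ∃ y ∈ L i, ∃ q ∈ (⊤ : Subgroup G), ⁅y, q⁆ = z} :=
        (Subgroup.mem_lowerCentralSeries_succ_iff _ i x).1 hx
      have hsub : closure {z | ∃ y ∈ L i, ∃ q ∈ (⊤ : Subgroup G), ⁅y, q⁆ = z} ≤ L (i + 1) := by
        rw [closure_le]
        rintro _ ⟨y, hy, q, hq, rfl⟩
        exact commutator_mem_commutator hy hq
      induction hx' using Subgroup.closure_induction with
      | mem z hz => obtain ⟨y, hy, q, -, rfl⟩ := hz; exact hgen y hy q
      | one => exact one_pow p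
      | mul a b ha hb iha ihb =>
        rw [(show Commute a b from habD a (hsub ha) b (hsub hb)).mul_pow, iha (hsub ha),
          ihb (hsub hb), one_mul]
      | inv a ha iha => rw [inv_pow, iha (hsub ha), inv_one]
    have hcard := hsmall (L (i + 1)) inferInstance habD hexpD
    obtain ⟨k, hk⟩ := IsPGroup.iff_card.1 (hG.to_subgroup (L (i + 1)))
    rcases k with - | k
    · rw [pow_zero] at hk
      rw [Subgroup.card_eq_one.1 hk]; exact bot_le
    · have hk' : Nat.card (L (i + 1)) = p := by
        refine le_antisymm hcard ?_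
        rw [hk]
        exact Nat.le_self_pow (Nat.succ_ne_zero k) p
      exact Cfsg.Agent.PGroup.le_center_of_card_eq hG hk'
  have hcl : commutator G ≤ center G := by
    have key : ∀ n, L (n + 1) ≤ center G → L 1 ≤ center G := by
      intro n
      induction n with
      | zero => exact id
      | succ n ihn => exact fun h => ihn (hdesc n h)
    exact key c ((Subgroup.lowerCentralSeries_antitone _ (Nat.le_succ c)).trans (hc.le.trans bot_le))
  have hexp : ∀ x : G, x ^ p = 1 := fun x =>
    Cfsg.Agent.PGroup.pow_eq_one_of_mem_closure hcl hodd hSp (hS ▸ mem_top x)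
  exact ⟨hcl, hexp, hsmall (center G) inferInstance
    (fun x hx y _ => (mem_center_iff.1 hx y).symm) (fun x _ => hexp x)⟩

theorem pow_arith {p r : ℕ} (hp : 3 ≤ p) (hr : 1 ≤ r) :
    p ^ (2 * r + 1) - p < (p - 1) * (p + 1) ^ (p ^ (r - 1) * (p - 1)) := by
  obtain ⟨r, rfl⟩ := Nat.exists_eq_add_of_le hr
  rcases r with - | r
  · simp only [Nat.add_zero, Nat.mul_one, Nat.sub_self, pow_zero, one_mul]
    have h1 : (p + 1) ^ 2 ≤ (p + 1) ^ (p - 1) := Nat.pow_le_pow_right (by omega) (by omega)
    have h2 : p ^ (2 + 1) - p < (p - 1) * (p + 1) ^ 2 := by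
      obtain ⟨q, rfl⟩ := Nat.exists_eq_add_of_le hp
      have e : (3 + q) ^ (2 + 1) - (3 + q) + ((3 + q) + 1) * (3 + q - 1) = (3 + q - 1) * (3 + q + 1) ^ 2 := by
        have : 3 + q ≤ (3 + q) ^ (2 + 1) := Nat.le_self_pow (by norm_num) _
        rw [show 3 + q - 1 = 2 + q by omega]
        zify [this]
        ring
      have : 0 < ((3 + q) + 1) * (3 + q - 1) := Nat.mul_pos (by omega) (by omega)
      omega
    exact h2.trans_le (Nat.mul_le_mul_left _ h1)
  · have h3 : ∀ r : ℕ, 2 * (1 + (r + 1)) + 1 ≤ 3 ^ (r + 1) * 2 := by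
      intro r
      induction r with
      | zero => norm_num
      | succ r ih => rw [pow_succ]; omega
    have hexp : 2 * (1 + (r + 1)) + 1 ≤ p ^ (1 + (r + 1) - 1) * (p - 1) := by
      rw [show 1 + (r + 1) - 1 = r + 1 by omega]
      exact (h3 r).trans (Nat.mul_le_mul (Nat.pow_le_pow_left hp _) (by omega))
    calc p ^ (2 * (1 + (r + 1)) + 1) - p < p ^ (2 * (1 + (r + 1)) + 1) :=
          Nat.sub_lt (Nat.pow_pos (by omega)) (by omega)
      _ ≤ (p + 1) ^ (2 * (1 + (r + 1)) + 1) := Nat.pow_le_pow_left (by omega) _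
      _ ≤ (p + 1) ^ (p ^ (1 + (r + 1) - 1) * (p - 1)) := Nat.pow_le_pow_right (by omega) hexp
      _ ≤ (p - 1) * (p + 1) ^ (p ^ (1 + (r + 1) - 1) * (p - 1)) :=
          Nat.le_mul_of_pos_left _ (by omega)

variable {V : Type*} [CommGroup V] [Finite V] (ρ : G →* MulAut V)

/-- A group of exponent `p`, class two, with centre of order `p` acting without fixed points, has
a vector fixed by no non-central element. -/
theorem exists_regular_vector (hG : IsPGroup p G) (hp2 : p ≠ 2) (hcl : commutator G ≤ center G)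
    (hexp : ∀ x : G, x ^ p = 1) (hZ : Nat.card (center G) = p) (hpV : ¬ p ∣ Nat.card V)
    [Nontrivial V] (hfix : fixSub ρ (center G) = ⊥) :
    ∃ v : V, ∀ e : G, e ∉ center G → ρ e v ≠ v := by
  classical
  by_contra hcon
  push Not at hcon
  have hp3 : 3 ≤ p := by have := hp.out.two_le; omega
  have hord : ∀ x : G, x ≠ 1 → Nat.card (zpowers x) = p := fun x hx => by
    rw [Nat.card_zpowers, orderOf_eq_prime (hexp x) hx]
  -- maximal abelian subgroup
  obtain ⟨M, hZM, hMmax⟩ := Finite.exists_le_maximal (a := center G)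
    (p := fun M : Subgroup G => ∀ x ∈ M, ∀ y ∈ M, x * y = y * x)
    (fun x hx y _ => (mem_center_iff.1 hx y).symm)
  obtain ⟨hMc, hmax⟩ := hMmax
  have hCM : ∀ u : G, (∀ m ∈ M, u * m = m * u) → u ∈ M := by
    intro u hu
    have hab : ∀ x ∈ M ⊔ zpowers u, ∀ y ∈ M ⊔ zpowers u, x * y = y * x := by
      rw [sup_eq_closure]
      haveI := Subgroup.isMulCommutative_closure (k := (M : Set G) ∪ (zpowers u : Set G)) ?_
      · intro x hx y hy
        exact congrArg Subtype.val (mul_comm' (⟨x, hx⟩ : Subgroup.closure _) ⟨y, hy⟩)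
      · rintro x (hx | hx) y (hy | hy)
        · exact hMc x hx y hy
        · obtain ⟨n, rfl⟩ := mem_zpowers_iff.1 hy
          exact ((show Commute u x from hu x hx).zpow_left n).eq.symm
        · obtain ⟨n, rfl⟩ := mem_zpowers_iff.1 hx
          exact ((show Commute u y from hu y hy).zpow_left n).eq
        · obtain ⟨n, rfl⟩ := mem_zpowers_iff.1 hx
          obtain ⟨m, rfl⟩ := mem_zpowers_iff.1 hy
          exact (Commute.zpow_zpow_self u n m).eq
    exact (hmax hab le_sup_left) (mem_sup_right (mem_zpowers u))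
  obtain ⟨r, hr⟩ := hG.index M
  -- |M| ≤ p * [G : M]
  have hMcard : Nat.card M ≤ p * p ^ r := by
    obtain ⟨Q, hMQ, hQmax⟩ := Finite.exists_le_maximal (a := M)
      (p := fun Q : Subgroup G => M ≤ Q ∧
        Nat.card M ≤ Nat.card ↥(M ⊓ centralizer (Q : Set G)) * M.relIndex Q)
      ⟨le_rfl, by
        rw [relIndex_self, mul_one]
        exact card_le_of_le (le_inf le_rfl fun x hx y hy => hMc y hy x hx)⟩
    obtain ⟨⟨-, hQ⟩, hQm⟩ := hQmax
    by_cases hQtop : Q = ⊤
    · subst hQtop
      rw [relIndex_top_right, hr] at hQ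
      refine hQ.trans (Nat.mul_le_mul_right _ (hZ ▸ card_le_of_le ?_))
      rw [coe_top, centralizer_univ]
      exact inf_le_right
    exfalso
    obtain ⟨u, -, hu⟩ := SetLike.exists_of_lt (lt_top_iff_ne_top.2 hQtop)
    set Q' := Q ⊔ zpowers u with hQ'
    let φ : ↥(M ⊓ centralizer (Q : Set G)) →* center G :=
      (Cfsg.Agent.PGroup.commutatorHomLeft hcl u).comp (Subgroup.subtype _)
    have hker : φ.ker.map (Subgroup.subtype _) ≤ M ⊓ centralizer (Q' : Set G) := by
      rintro _ ⟨⟨m, hm⟩, hmk, rfl⟩
      refine ⟨hm.1, ?_⟩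
      have hmu : Commute m u := (Cfsg.Agent.PGroup.mem_ker_commutatorHomLeft hcl).1 hmk
      have hle : Q' ≤ centralizer {m} := sup_le
        (fun q hq => mem_centralizer_singleton_iff.2 (hm.2 q hq))
        (zpowers_le.2 (mem_centralizer_singleton_iff.2 hmu.eq.symm))
      exact fun q hq => mem_centralizer_singleton_iff.1 (hle hq)
    have h1 : Nat.card ↥(M ⊓ centralizer (Q : Set G)) ≤
        Nat.card ↥(M ⊓ centralizer (Q' : Set G)) * p := by
      rw [← card_mul_index φ.ker]
      refine Nat.mul_le_mul ?_ ?_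
      · rw [← card_map_of_injective (Subgroup.subtype_injective (M ⊓ centralizer (Q : Set G)))]
        exact card_le_of_le hker
      · rw [index_ker]
        exact (card_le_card_group _).trans hZ.le
    have h2 : p * M.relIndex Q ≤ M.relIndex Q' := by
      rw [← relIndex_mul_relIndex M Q Q' hMQ le_sup_left, mul_comm]
      refine Nat.mul_le_mul_left _ ?_
      obtain ⟨j, hj⟩ := (hG.to_subgroup Q').index (Q.subgroupOf Q')
      have hne : Q.relIndex Q' ≠ 1 := fun h =>
        hu ((relIndex_eq_one.1 h) (mem_sup_right (mem_zpowers u)))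
      rw [relIndex, hj] at hne ⊢
      rcases j with - | j
      · simp at hne
      · exact Nat.le_self_pow (Nat.succ_ne_zero j) p
    have h3 : Nat.card M ≤ Nat.card ↥(M ⊓ centralizer (Q' : Set G)) * M.relIndex Q' :=
      hQ.trans ((Nat.mul_le_mul_right _ h1).trans
        ((mul_assoc _ _ _).trans_le (Nat.mul_le_mul_left _ h2)))
    exact hu (hQm ⟨hMQ.trans le_sup_left, h3⟩ le_sup_left (mem_sup_right (mem_zpowers u)))
  have hMfix : fixSub ρ M = ⊥ := eq_bot_iff.2 (fun v hv => hfix ▸ fixSub_mono ρ hZM hv)
  obtain ⟨K, hKM, hKp, hKne⟩ := exists_relIndex_fix ρ hpV (hG.to_subgroup M) hMc hMfix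
    (fun x _ => hexp x)
  have hKZ : K ⊓ center G = ⊥ := by
    have hd : Nat.card ↥(K ⊓ center G) ∣ p := hZ ▸ card_dvd_of_le inf_le_right
    rcases (Nat.dvd_prime hp.out).1 hd with h | h
    · exact Subgroup.card_eq_one.1 h
    · exfalso
      have he := eq_of_le_of_card_ge (inf_le_right : K ⊓ center G ≤ center G) (by rw [h, hZ])
      exact hKne (eq_bot_iff.2 (fun v hv => hfix ▸ fixSub_mono ρ (he ▸ inf_le_left) hv))
  have hWp : p + 1 ≤ Nat.card (fixSub ρ K) := by
    -- the centre permutes the non-identity fixed points in orbits of length p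
    have hinv : ∀ z ∈ center G, ∀ v ∈ fixSub ρ K, ρ z v ∈ fixSub ρ K := fun z hz v hv =>
      smul_mem_fixSub ρ (fun k hk => by
        rw [mul_assoc, mem_center_iff.1 hz k, inv_mul_cancel_left]; exact hk) hv
    letI : MulAction (center G) (fixSub ρ K) :=
      { smul := fun z v => ⟨ρ z v, hinv z z.2 v v.2⟩
        one_smul := fun v => Subtype.ext (rho_one ρ (v : V))
        mul_smul := fun a b v => Subtype.ext (rho_mul ρ (a : G) b (v : V)) }
    have hmod := (IsPGroup.of_card (n := 1) (hZ.trans (pow_one p).symm)).card_modEq_card_fixedPoints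
      (fixSub ρ K)
    have hfp : Nat.card (MulAction.fixedPoints (center G) (fixSub ρ K)) = 1 := by
      rw [Nat.card_eq_one_iff_unique]
      refine ⟨⟨fun a b => ?_⟩, ⟨⟨1, fun z => Subtype.ext (map_one (ρ z))⟩⟩⟩
      have key : ∀ a : MulAction.fixedPoints (center G) (fixSub ρ K), a.1 = 1 := by
        intro a
        have : (a.1 : V) ∈ fixSub ρ (center G) := fun z hz =>
          congrArg Subtype.val (a.2 ⟨z, hz⟩)
        rw [hfix, mem_bot] at this
        exact Subtype.ext this
      exact Subtype.ext ((key a).trans (key b).symm)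
    rw [hfp] at hmod
    have h2 : 1 < Nat.card (fixSub ρ K) := (one_lt_card_iff_ne_bot _).2 hKne
    obtain ⟨j, hj⟩ := (Nat.modEq_iff_dvd' h2.le).1 hmod.symm
    rcases j with - | j
    · omega
    · rw [mul_add, mul_one] at hj; omega
  -- conjugates of K
  have hVbig : (p + 1) ^ (p ^ r) ≤ Nat.card V := by
    haveI : Fintype (G ⧸ M) := Fintype.ofFinite _
    have hMn : ∀ (g : G), ∀ m ∈ M, g * m * g⁻¹ ∈ M := by
      intro g m hm
      have : ⁅g, m⁆ ∈ M := hZM (hcl (commutator_mem_commutator (mem_top g) (mem_top m)))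
      have h := mul_mem this hm
      simpa [commutatorElement_def, mul_assoc] using h
    let f : G ⧸ M → Subgroup G := fun q => K.map (MulAut.conj q.out).toMonoidHom
    have hfle : ∀ q, f q ≤ M := by
      rintro q _ ⟨k, hk, rfl⟩
      exact hMn _ k (hKM hk)
    have hcardK : Nat.card K * p = Nat.card M := by
      rw [← hKp]
      have h := relIndex_mul_relIndex (⊥ : Subgroup G) K M bot_le hKM
      rwa [relIndex_bot_left, relIndex_bot_left] at h
    have hfp : ∀ q, (f q).relIndex M = p := by
      intro q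
      have h := relIndex_mul_relIndex (⊥ : Subgroup G) (f q) M bot_le (hfle q)
      rw [relIndex_bot_left, relIndex_bot_left,
        show Nat.card (f q) = Nat.card K from
          (Nat.card_congr (K.equivMapOfInjective _ (MulAut.conj q.out).injective).toEquiv).symm,
        ← hcardK] at h
      exact Nat.eq_of_mul_eq_mul_left Nat.card_pos h
    have hfinj : Function.Injective f := by
      intro q q' h
      have hu : ∀ k ∈ K, (q'.out⁻¹ * q.out) * k * (q'.out⁻¹ * q.out)⁻¹ = k := by
        intro k hk
        set u := q'.out⁻¹ * q.out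
        have hmem : u * k * u⁻¹ ∈ K := by
          obtain ⟨k', hk', he⟩ : (MulAut.conj q.out) k ∈ f q' := h ▸ ⟨k, hk, rfl⟩
          have he' : q'.out * k' * q'.out⁻¹ = q.out * k * q.out⁻¹ := he
          have : u * k * u⁻¹ = k' := by
            calc u * k * u⁻¹ = q'.out⁻¹ * (q.out * k * q.out⁻¹) * q'.out := by
                  rw [show u = q'.out⁻¹ * q.out from rfl]; group
              _ = k' := by rw [← he']; group
          rwa [this]
        have hin : u * k * u⁻¹ * k⁻¹ ∈ K ⊓ center G :=
          Subgroup.mem_inf.2 ⟨K.mul_mem hmem (K.inv_mem hk),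
            hcl (commutator_mem_commutator (mem_top u) (mem_top k))⟩
        rw [hKZ, mem_bot, mul_inv_eq_one] at hin
        exact hin
      have hsup : K ⊔ center G = M := by
        rcases isCoatom_of_relIndex hKM hKp (le_sup_left : K ≤ K ⊔ center G) (sup_le hKM hZM)
          with h' | h'
        · exfalso
          have hle := sup_eq_left.1 h'
          rw [inf_eq_right.2 hle] at hKZ
          rw [hKZ, card_bot] at hZ
          exact hp.out.one_lt.ne hZ
        · exact h'
      have huM : q'.out⁻¹ * q.out ∈ M := by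
        refine hCM _ fun m hm => ?_
        have hle : K ⊔ center G ≤ centralizer {q'.out⁻¹ * q.out} := sup_le
          (fun k hk => mem_centralizer_singleton_iff.2 (mul_inv_eq_iff_eq_mul.1 (hu k hk)).symm)
          (fun z hz => mem_centralizer_singleton_iff.2 (mem_center_iff.1 hz _).symm)
        exact (mem_centralizer_singleton_iff.1 (hle (hsup ▸ hm))).symm
      have h' := QuotientGroup.eq.2 huM
      rw [QuotientGroup.out_eq', QuotientGroup.out_eq'] at h'
      exact h'.symm
    have hfc : ∀ q, Nat.card (fixSub ρ (f q)) = Nat.card (fixSub ρ K) := by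
      intro q
      refine (Nat.card_congr (α := fixSub ρ K) (β := fixSub ρ (f q))
        { toFun := fun v => ⟨ρ q.out v.1, ?_⟩
          invFun := fun v => ⟨ρ q.out⁻¹ v.1, ?_⟩
          left_inv := ?_
          right_inv := ?_ }).symm
      · rintro _ ⟨k, hk, rfl⟩
        show ρ (q.out * k * q.out⁻¹) (ρ q.out v.1) = ρ q.out v.1
        rw [← rho_mul, inv_mul_cancel_right, rho_mul, v.2 k hk]
      · intro k hk
        show ρ k (ρ q.out⁻¹ v.1) = ρ q.out⁻¹ v.1
        rw [← rho_mul, show k * q.out⁻¹ = q.out⁻¹ * (q.out * k * q.out⁻¹) by group, rho_mul,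
          v.2 (q.out * k * q.out⁻¹) ⟨k, hk, rfl⟩]
      · exact fun v => Subtype.ext ((rho_mul ρ _ _ _).symm.trans
          ((congrArg (fun t => ρ t v.1) (inv_mul_cancel _)).trans (rho_one ρ _)))
      · exact fun v => Subtype.ext ((rho_mul ρ _ _ _).symm.trans
          ((congrArg (fun t => ρ t v.1) (mul_inv_cancel _)).trans (rho_one ρ _)))
    have h := card_pow_le ρ hpV (hG.to_subgroup M) hMc hMfix f hfinj hfle hfp hfc
    rw [← Nat.card_eq_fintype_card, ← index_eq_card, hr] at h
    exact (Nat.pow_le_pow_left hWp _).trans h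
  -- each non-central element fixes few points
  have hsmallfix : ∀ e : G, e ∉ center G → Nat.card (fixSub ρ (zpowers e)) ^ p ≤ Nat.card V := by
    intro e he
    obtain ⟨f, hfe⟩ : ∃ f : G, ⁅f, e⁆ ≠ 1 := by
      by_contra h
      push Not at h
      exact he (mem_center_iff.2 fun g => commutatorElement_eq_one_iff_mul_comm.1 (h g))
    set c := ⁅f, e⁆ with hc
    have hcZ : c ∈ center G := hcl (commutator_mem_commutator (mem_top f) (mem_top e))
    have hzc : zpowers c = center G :=
      eq_of_le_of_card_ge (zpowers_le.2 hcZ) (by rw [hord c hfe, hZ])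
    have he1 : e ≠ 1 := fun h => he (h ▸ one_mem _)
    set B := zpowers e ⊔ center G with hB
    have hBc : ∀ x ∈ B, ∀ y ∈ B, x * y = y * x := by
      intro x hx y hy
      obtain ⟨x1, hx1, x2, hx2, rfl⟩ := mem_sup_of_normal_right.1 hx
      obtain ⟨y1, hy1, y2, hy2, rfl⟩ := mem_sup_of_normal_right.1 hy
      obtain ⟨m, rfl⟩ := mem_zpowers_iff.1 hx1
      obtain ⟨n, rfl⟩ := mem_zpowers_iff.1 hy1
      rw [mem_center_iff] at hx2 hy2
      exact (Commute.mul_left (Commute.mul_right (Commute.zpow_zpow_self e m n) (hy2 _))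
        (hx2 _).symm).eq
    let K : Fin p → Subgroup G := fun i => zpowers (e * c ^ (i : ℕ))
    have hne : ∀ i : ℕ, e * c ^ i ∉ center G := fun i h =>
      he (by simpa using mul_mem h (inv_mem (pow_mem hcZ i)))
    have hKle : ∀ i, K i ≤ B := fun i => zpowers_le.2
      (mul_mem (mem_sup_left (mem_zpowers e)) (mem_sup_right (pow_mem hcZ _)))
    have hBcard : Nat.card B = p * p := by
      have h := Subgroup.card_mul_index ((center G).subgroupOf B)
      rw [Nat.card_congr (subgroupOfEquivOfLe (le_sup_right : center G ≤ B)).toEquiv, hZ] at h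
      rw [← h]
      congr 1
      show (center G).relIndex (zpowers e ⊔ center G) = p
      rw [relIndex_sup_right]
      have h' := Subgroup.card_mul_index ((center G).subgroupOf (zpowers e))
      rw [hord e he1] at h'
      have hbot : (center G).subgroupOf (zpowers e) = ⊥ := by
        rw [subgroupOf_eq_bot, disjoint_iff]
        have hd : Nat.card ↥(center G ⊓ zpowers e) ∣ p := hZ ▸ card_dvd_of_le inf_le_left
        rcases (Nat.dvd_prime hp.out).1 hd with h1 | h1
        · exact Subgroup.card_eq_one.1 h1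
        · exfalso
          have he' := eq_of_le_of_card_ge (inf_le_right : center G ⊓ zpowers e ≤ zpowers e)
            (by rw [h1, hord e he1])
          exact he ((he'.ge.trans inf_le_left) (mem_zpowers e))
      rw [show Nat.card ↥((center G).subgroupOf (zpowers e)) = 1 by rw [hbot, card_bot],
        one_mul] at h'
      exact h'
    have hKp : ∀ i, (K i).relIndex B = p := by
      intro i
      have h := relIndex_mul_relIndex (⊥ : Subgroup G) (K i) B bot_le (hKle i)
      rw [relIndex_bot_left, relIndex_bot_left, hBcard,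
        hord _ (fun h => hne i (by rw [h]; exact one_mem _))] at h
      exact Nat.eq_of_mul_eq_mul_left hp.out.pos h
    have hKinj : Function.Injective K := by
      intro i j hij
      by_contra hne'
      apply hne i
      have h1 : c ^ (i : ℕ) * (c ^ (j : ℕ))⁻¹ ∈ K i := by
        have a1 : e * c ^ (i : ℕ) ∈ K i := mem_zpowers _
        have a2 : e * c ^ (j : ℕ) ∈ K i := hij ▸ mem_zpowers _
        have := mul_mem a1 (inv_mem a2)
        have e1 : e * c ^ (i : ℕ) * (e * c ^ (j : ℕ))⁻¹ = c ^ (i : ℕ) * (c ^ (j : ℕ))⁻¹ := by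
          rw [mul_inv_rev, ← mul_assoc, mul_assoc e, mem_center_iff.1
            (mul_mem (pow_mem hcZ _) (inv_mem (pow_mem hcZ _))) e, mul_inv_cancel_right]
        rwa [e1] at this
      have hd : c ^ (i : ℕ) * (c ^ (j : ℕ))⁻¹ ≠ 1 := by
        intro h
        rw [mul_inv_eq_one, pow_inj_mod, orderOf_eq_prime (hexp c) hfe,
          Nat.mod_eq_of_lt i.2, Nat.mod_eq_of_lt j.2] at h
        exact hne' (Fin.ext h)
      have h2 : K i = zpowers (c ^ (i : ℕ) * (c ^ (j : ℕ))⁻¹) :=
        (eq_of_le_of_card_ge (zpowers_le.2 h1)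
          (by rw [hord _ hd, hord _ (fun h => hne i (by rw [h]; exact one_mem _))])).symm
      have h3 : K i ≤ center G := h2 ▸ zpowers_le.2
        (mul_mem (pow_mem hcZ _) (inv_mem (pow_mem hcZ _)))
      exact h3 (mem_zpowers _)
    have hKc : ∀ i, Nat.card (fixSub ρ (K i)) = Nat.card (fixSub ρ (zpowers e)) := by
      intro i
      have hconj : f ^ (i : ℕ) * e * (f ^ (i : ℕ))⁻¹ = e * c ^ (i : ℕ) := by
        generalize (i : ℕ) = n
        induction n with
        | zero => simp
        | succ n ihn =>
          calc f ^ (n + 1) * e * (f ^ (n + 1))⁻¹ = f * (f ^ n * e * (f ^ n)⁻¹) * f⁻¹ := by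
                rw [pow_succ']; group
            _ = f * e * c ^ n * f⁻¹ := by rw [ihn]; group
            _ = f * e * f⁻¹ * c ^ n := by
                rw [mul_assoc (f * e), ← mem_center_iff.1 (pow_mem hcZ n) f⁻¹, ← mul_assoc]
            _ = e * c ^ (n + 1) := by
                rw [show f * e * f⁻¹ = c * e by rw [hc, commutatorElement_def]; group,
                  ← mem_center_iff.1 hcZ e, mul_assoc, ← pow_succ']
      refine (Nat.card_congr (α := fixSub ρ (zpowers e)) (β := fixSub ρ (K i))
        { toFun := fun v => ⟨ρ (f ^ (i : ℕ)) v.1, ?_⟩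
          invFun := fun v => ⟨ρ (f ^ (i : ℕ))⁻¹ v.1, ?_⟩
          left_inv := ?_
          right_inv := ?_ }).symm
      · rintro k hk
        obtain ⟨n, rfl⟩ := mem_zpowers_iff.1 hk
        rw [← hconj, conj_zpow]
        show ρ _ (ρ _ v.1) = ρ _ v.1
        rw [← rho_mul, inv_mul_cancel_right, rho_mul, v.2 _ (zpow_mem (mem_zpowers e) n)]
      · intro k hk
        obtain ⟨n, rfl⟩ := mem_zpowers_iff.1 hk
        show ρ (e ^ n) (ρ (f ^ (i : ℕ))⁻¹ v.1) = ρ (f ^ (i : ℕ))⁻¹ v.1
        have hmem : f ^ (i : ℕ) * e ^ n * (f ^ (i : ℕ))⁻¹ ∈ K i := by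
          rw [← conj_zpow, hconj]; exact zpow_mem (mem_zpowers _) n
        rw [← rho_mul, show e ^ n * (f ^ (i : ℕ))⁻¹ =
            (f ^ (i : ℕ))⁻¹ * (f ^ (i : ℕ) * e ^ n * (f ^ (i : ℕ))⁻¹) by group, rho_mul,
          v.2 _ hmem]
      · exact fun v => Subtype.ext ((rho_mul ρ _ _ _).symm.trans
          ((congrArg (fun t => ρ t v.1) (inv_mul_cancel _)).trans (rho_one ρ _)))
      · exact fun v => Subtype.ext ((rho_mul ρ _ _ _).symm.trans
          ((congrArg (fun t => ρ t v.1) (mul_inv_cancel _)).trans (rho_one ρ _)))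
    have h := card_pow_le ρ hpV (hG.to_subgroup B) hBc
      (eq_bot_iff.2 (fun v hv => hfix ▸ fixSub_mono ρ le_sup_right hv)) K hKinj hKle hKp hKc
    rwa [Fintype.card_fin] at h
  -- double counting
  haveI : Fintype G := Fintype.ofFinite G
  haveI : Fintype V := Fintype.ofFinite V
  let E : Finset G := Finset.univ.filter (fun e => e ∉ center G)
  have hlow : ∀ v : V, p - 1 ≤ (E.filter fun e => ρ e v = v).card := by
    intro v
    obtain ⟨e, he, hev⟩ := hcon v
    have he1 : e ≠ 1 := fun h => he (h ▸ one_mem _)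
    have hoe : orderOf e = p := orderOf_eq_prime (hexp e) he1
    have hsub : (Finset.Ico 1 p).image (fun i => e ^ i) ⊆ E.filter fun e => ρ e v = v := by
      intro x hx
      simp only [Finset.mem_image, Finset.mem_Ico] at hx
      obtain ⟨i, ⟨hi1, hi2⟩, rfl⟩ := hx
      simp only [E, Finset.mem_filter, Finset.mem_univ, true_and]
      constructor
      · intro h
        apply he
        have hcop : i.Coprime (orderOf e) := by
          rw [hoe]
          exact ((hp.out.coprime_iff_not_dvd).2 (Nat.not_dvd_of_pos_of_lt (by omega) hi2)).symm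
        obtain ⟨m, hm⟩ := exists_pow_eq_self_of_coprime hcop
        rw [← hm]
        exact pow_mem h m
      · have : ∀ i : ℕ, ρ (e ^ i) v = v := by
          intro i
          induction i with
          | zero => rw [pow_zero, rho_one]
          | succ i ih => rw [pow_succ, rho_mul, hev, ih]
        exact this i
    refine le_trans ?_ (Finset.card_le_card hsub)
    rw [Finset.card_image_of_injOn, Nat.card_Ico]
    intro a ha b hb hab
    simp only [Finset.coe_Ico, Set.mem_Ico] at ha hb
    rwa [pow_inj_mod, hoe, Nat.mod_eq_of_lt ha.2, Nat.mod_eq_of_lt hb.2] at hab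
  have htot : (p - 1) * Nat.card V ≤ ∑ e ∈ E, Nat.card (fixSub ρ (zpowers e)) := by
    calc (p - 1) * Nat.card V = ∑ _v : V, (p - 1) := by
          rw [Finset.sum_const, Finset.card_univ, smul_eq_mul, Nat.card_eq_fintype_card, mul_comm]
      _ ≤ ∑ v : V, (E.filter fun e => ρ e v = v).card := Finset.sum_le_sum fun v _ => hlow v
      _ = ∑ e ∈ E, (Finset.univ.filter fun v : V => ρ e v = v).card := by
          simp only [Finset.card_filter]
          exact Finset.sum_comm
      _ = ∑ e ∈ E, Nat.card (fixSub ρ (zpowers e)) := by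
          refine Finset.sum_congr rfl fun e _ => ?_
          rw [← Fintype.card_subtype, ← Nat.card_eq_fintype_card]
          refine Nat.card_congr (Equiv.subtypeEquivRight fun v => ?_)
          constructor
          · intro hv k hk
            obtain ⟨n, rfl⟩ := mem_zpowers_iff.1 hk
            rcases Int.eq_nat_or_neg n with ⟨m, rfl | rfl⟩
            · rw [zpow_natCast]
              clear hk
              induction m with
              | zero => rw [pow_zero, rho_one]
              | succ m ih =>
                rw [pow_succ, rho_mul, hv, ih]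
            · rw [zpow_neg, zpow_natCast]
              have : ρ (e ^ m) v = v := by
                clear hk
                induction m with
                | zero => rw [pow_zero, rho_one]
                | succ m ih => rw [pow_succ, rho_mul, hv, ih]
              nth_rewrite 1 [← this]
              rw [← rho_mul, inv_mul_cancel, rho_one]
          · exact fun hv => hv e (mem_zpowers e)
  have hEne : E.Nonempty := by
    obtain ⟨e, he, -⟩ := hcon 1
    exact ⟨e, by simp [E, he]⟩
  obtain ⟨e₀, he₀, hmaxe⟩ := E.exists_max_image (fun e => Nat.card (fixSub ρ (zpowers e))) hEne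
  set c := Nat.card (fixSub ρ (zpowers e₀)) with hcdef
  have hEcard : E.card = Nat.card G - p := by
    rw [← hZ]
    simp only [E]
    rw [Finset.filter_not, Finset.card_sdiff_of_subset (Finset.filter_subset _ _), Finset.card_univ,
      ← Nat.card_eq_fintype_card, ← Fintype.card_subtype, ← Nat.card_eq_fintype_card]
  have hGcard : Nat.card G ≤ p ^ (2 * r + 1) := by
    rw [← card_mul_index M, hr]
    calc Nat.card M * p ^ r ≤ p * p ^ r * p ^ r := Nat.mul_le_mul_right _ hMcard
      _ = p ^ (2 * r + 1) := by ring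
  have hr1 : 1 ≤ r := by
    by_contra h
    have hr0 : r = 0 := by omega
    rw [hr0, pow_zero, index_eq_one] at hr
    exact (Finset.mem_filter.1 he₀).2 (mem_center_iff.2 fun g =>
      hMc g (hr ▸ mem_top g) e₀ (hr ▸ mem_top e₀))
  have h1 : (p - 1) * Nat.card V ≤ (p ^ (2 * r + 1) - p) * c := by
    refine htot.trans ((Finset.sum_le_card_nsmul _ _ c (fun e he => hmaxe e he)).trans ?_)
    rw [smul_eq_mul, hEcard]
    exact Nat.mul_le_mul_right _ (Nat.sub_le_sub_right hGcard p)
  have h2 : c ^ p ≤ Nat.card V := hsmallfix e₀ (Finset.mem_filter.1 he₀).2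
  have harith := pow_arith hp3 hr1
  set A := p ^ (2 * r + 1) - p with hA
  have h3 : (p - 1) ^ p * Nat.card V ^ (p - 1) ≤ A ^ p := by
    refine Nat.le_of_mul_le_mul_right ?_ (Nat.card_pos (α := V))
    calc (p - 1) ^ p * Nat.card V ^ (p - 1) * Nat.card V = ((p - 1) * Nat.card V) ^ p := by
          rw [mul_pow, mul_assoc, ← pow_succ, Nat.sub_add_cancel hp.out.one_lt.le]
      _ ≤ (A * c) ^ p := Nat.pow_le_pow_left h1 p
      _ ≤ A ^ p * Nat.card V := by rw [mul_pow]; exact Nat.mul_le_mul_left _ h2
  have h4 : ((p - 1) * (p + 1) ^ (p ^ (r - 1) * (p - 1))) ^ p ≤ A ^ p := by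
    refine le_trans ?_ h3
    rw [mul_pow]
    refine Nat.mul_le_mul_left _ ?_
    rw [← pow_mul, show p ^ (r - 1) * (p - 1) * p = p ^ r * (p - 1) by
      conv_rhs => rw [show r = r - 1 + 1 by omega, pow_succ]
      ring, pow_mul]
    exact Nat.pow_le_pow_left hVbig _
  exact absurd harith (not_lt.2 ((Nat.pow_le_pow_iff_left hp.out.ne_zero).1 h4))

end Cfsg.Agent.OrbitCover
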