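import Mathlib
import Cfsg.Agent.PGroup.Frattini

/-! A `p`-group of permutations, `p` odd, has a subset with trivial setwise stabiliser. -/

set_option autoImplicit false
set_option linter.style.haveILetI false

namespace Cfsg.Agent.OrbitCover

universe u v

theorem exists_regular_subset {p : ℕ} [hp : Fact p.Prime] (hp2 : p ≠ 2) :
    ∀ (n : ℕ) (P : Type u) [Group P] [Finite P], IsPGroup p P →
      ∀ (X : Type v) [Finite X] [MulAction P X], Nat.card X = n →
        ∃ T : Set X, ∀ g : P, (∀ x : X, g • x ∈ T ↔ x ∈ T) → ∀ x : X, g • x = x := by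
  intro n
  induction n using Nat.strong_induction_on with
  | _ n ih => ?_
  intro P _ _ hP X _ _ hn
  classical
  subst hn
  by_cases hX : Subsingleton X
  · exact ⟨∅, fun g _ x => Subsingleton.elim _ _⟩
  rw [not_subsingleton_iff_nontrivial] at hX
  by_cases htr : MulAction.IsPretransitive P X
  swap
  · obtain ⟨a, b, hab⟩ : ∃ a b : X, ∀ g : P, g • a ≠ b := by
      by_contra hcon
      push Not at hcon
      exact htr ⟨hcon⟩
    let O : SubMulAction P X :=
      { carrier := {x | ∃ g : P, g • a = x}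
        smul_mem' := by rintro h x ⟨g, rfl⟩; exact ⟨h * g, mul_smul _ _ _⟩ }
    let O' : SubMulAction P X :=
      { carrier := {x | x ∉ O}
        smul_mem' := by
          intro h x hx hmem
          apply hx
          have := O.smul_mem h⁻¹ hmem
          simpa using this }
    have hb : b ∉ O := fun ⟨g, hg⟩ => hab g hg
    have ha : a ∈ O := ⟨1, one_smul _ _⟩
    have h1 : Nat.card O < Nat.card X := Finite.card_subtype_lt (x := b) hb
    have h2 : Nat.card O' < Nat.card X := Finite.card_subtype_lt (x := a) (fun h => h ha)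
    obtain ⟨T1, hT1⟩ := ih _ h1 P hP O rfl
    obtain ⟨T2, hT2⟩ := ih _ h2 P hP O' rfl
    refine ⟨{x | (∃ h : x ∈ O, (⟨x, h⟩ : O) ∈ T1) ∨ (∃ h : x ∈ O', (⟨x, h⟩ : O') ∈ T2)},
      fun g hg x => ?_⟩
    by_cases hx : x ∈ O
    · have h := hT1 g (fun y => ?_) ⟨x, hx⟩
      · exact congrArg Subtype.val h
      · have hy := hg y.1
        simp only [Set.mem_setOf_eq] at hy
        constructor
        · intro h'
          rcases hy.1 (Or.inl ⟨O.smul_mem g y.2, h'⟩) with ⟨_, h''⟩ | ⟨h', _⟩
          · exact h''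
          · exact absurd y.2 h'
        · intro h'
          rcases hy.2 (Or.inl ⟨y.2, h'⟩) with ⟨_, h''⟩ | ⟨h', _⟩
          · exact h''
          · exact absurd (O.smul_mem g y.2) h'
    · have h := hT2 g (fun y => ?_) ⟨x, hx⟩
      · exact congrArg Subtype.val h
      · have hy := hg y.1
        simp only [Set.mem_setOf_eq] at hy
        constructor
        · intro h'
          rcases hy.1 (Or.inr ⟨O'.smul_mem g y.2, h'⟩) with ⟨h', _⟩ | ⟨_, h''⟩
          · exact absurd h' y.2
          · exact h''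
        · intro h'
          rcases hy.2 (Or.inr ⟨y.2, h'⟩) with ⟨h', _⟩ | ⟨_, h''⟩
          · exact absurd h' (O'.smul_mem g y.2)
          · exact h''
  haveI := htr
  obtain ⟨x₀⟩ : Nonempty X := inferInstance
  have hst : MulAction.stabilizer P x₀ ≠ ⊤ := by
    intro h
    obtain ⟨x, hx⟩ := exists_ne x₀
    obtain ⟨g, rfl⟩ := MulAction.exists_smul_eq P x₀ x
    exact hx (MulAction.mem_stabilizer_iff.1 (h ▸ Subgroup.mem_top g))
  obtain ⟨M, hM, hsM⟩ := (eq_top_or_exists_le_coatom (MulAction.stabilizer P x₀)).resolve_left hst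
  haveI hMn : M.Normal := Cfsg.Agent.PGroup.normal_of_isCoatom hP hM
  let Q := Quotient (MulAction.orbitRel M X)
  have hsmul : ∀ (g : P) {x y : X}, (Quotient.mk _ x : Q) = Quotient.mk _ y →
      (Quotient.mk _ (g • x) : Q) = Quotient.mk _ (g • y) := by
    intro g x y h
    rw [Quotient.eq, MulAction.orbitRel_apply, MulAction.mem_orbit_iff] at h ⊢
    obtain ⟨m, rfl⟩ := h
    refine ⟨⟨g * m * g⁻¹, hMn.conj_mem _ m.2 g⟩, ?_⟩
    show (g * m * g⁻¹) • g • y = g • (m : P) • y
    rw [smul_smul, smul_smul, inv_mul_cancel_right]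
  let O : Q → SubMulAction M X := fun q =>
    { carrier := {x | Quotient.mk _ x = q}
      smul_mem' := by
        intro m x hx
        show Quotient.mk _ (m • x) = q
        refine Eq.trans ?_ hx
        exact Quotient.sound ⟨m, rfl⟩ }
  have hlt : ∀ q, Nat.card (O q) < Nat.card X := by
    intro q
    obtain ⟨g, hg⟩ := SetLike.exists_of_lt hM.lt_top
    by_contra hge
    have hall : ∀ x, Quotient.mk _ x = q := by
      intro x
      by_contra hx
      exact hge (Finite.card_subtype_lt (x := x) hx)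
    have h := (hall (g • x₀)).trans (hall x₀).symm
    rw [Quotient.eq, MulAction.orbitRel_apply, MulAction.mem_orbit_iff] at h
    obtain ⟨m, hm⟩ := h
    have h' : (m : P)⁻¹ * g ∈ MulAction.stabilizer P x₀ := by
      rw [MulAction.mem_stabilizer_iff, mul_smul, inv_smul_eq_iff]
      exact hm.symm
    have := M.mul_mem m.2 (hsM h')
    rw [mul_inv_cancel_left] at this
    exact hg.2 this
  have hodd : ∀ q, Odd (Nat.card (O q)) := by
    intro q
    obtain ⟨x, rfl⟩ := Quotient.exists_rep q
    have he : Nat.card (O (Quotient.mk _ x)) = Nat.card (MulAction.orbit M x) := by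
      refine Nat.card_congr (Equiv.subtypeEquivRight fun y => ?_)
      show Quotient.mk (MulAction.orbitRel M X) y = Quotient.mk _ x ↔ _
      rw [Quotient.eq, MulAction.orbitRel_apply]
    obtain ⟨k, hk⟩ := (hP.to_subgroup M).card_orbit x
    rw [he, hk]
    exact (hp.out.odd_of_ne_two hp2).pow
  have hchoice : ∀ q, ∃ T : Set (O q), (∀ m : M, (∀ x : O q, m • x ∈ T ↔ x ∈ T) → ∀ x : O q, m • x = x) ∧
      (Nat.card (O q) < 2 * T.ncard ↔ q = Quotient.mk _ x₀) := by
    intro q
    obtain ⟨T, hT⟩ := ih _ (hlt q) M (hP.to_subgroup M) (O q) rfl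
    have hT' : ∀ m : M, (∀ x : O q, m • x ∈ Tᶜ ↔ x ∈ Tᶜ) → ∀ x : O q, m • x = x := fun m hm =>
      hT m (fun x => not_iff_not.1 (hm x))
    have hc := Set.ncard_add_ncard_compl T
    obtain ⟨k, hk⟩ := hodd q
    by_cases h : Nat.card (O q) < 2 * T.ncard ↔ q = Quotient.mk _ x₀
    · exact ⟨T, hT, h⟩
    · refine ⟨Tᶜ, hT', ?_⟩
      by_cases hq : q = Quotient.mk _ x₀
      · constructor
        · exact fun _ => hq
        · intro _
          have : ¬ Nat.card (O q) < 2 * T.ncard := fun h' => h ⟨fun _ => hq, fun _ => h'⟩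
          omega
      · constructor
        · intro h'
          exfalso
          have : Nat.card (O q) < 2 * T.ncard := by
            by_contra h''
            exact h ⟨fun h3 => absurd h3 h'', fun h3 => absurd h3 hq⟩
          omega
        · exact fun h' => absurd h' hq
  choose T hT hTbig using hchoice
  let S : Set X := {x | (⟨x, rfl⟩ : O (Quotient.mk _ x)) ∈ T (Quotient.mk _ x)}
  have hmemS : ∀ (q : Q) (x : O q), x.1 ∈ S ↔ x ∈ T q := by
    rintro q ⟨x, hx⟩
    change Quotient.mk _ x = q at hx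
    subst hx
    exact Iff.rfl
  refine ⟨S, fun g hg => ?_⟩
  -- g fixes the block of x₀
  let q0 : Q := Quotient.mk _ x₀
  let q1 : Q := Quotient.mk _ (g • x₀)
  let e : O q0 ≃ O q1 :=
    { toFun := fun x => ⟨g • x.1, hsmul g x.2⟩
      invFun := fun y => ⟨g⁻¹ • y.1, by
        show Quotient.mk _ (g⁻¹ • y.1) = q0
        have h := hsmul g⁻¹ (y.2 : Quotient.mk _ y.1 = q1)
        rw [inv_smul_smul] at h
        exact h⟩
      left_inv := fun x => Subtype.ext (inv_smul_smul _ _)
      right_inv := fun y => Subtype.ext (smul_inv_smul _ _) }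
  have himg : e '' T q0 = T q1 := by
    ext y
    constructor
    · rintro ⟨x, hx, rfl⟩
      rw [← hmemS]
      exact (hg x.1).2 ((hmemS q0 x).2 hx)
    · intro hy
      refine ⟨e.symm y, ?_, e.apply_symm_apply y⟩
      rw [← hmemS]
      apply (hg _).1
      show g • g⁻¹ • y.1 ∈ S
      rw [smul_inv_smul]
      exact (hmemS q1 y).2 hy
  have hq : q1 = q0 := by
    have h0 := (hTbig q0).2 rfl
    rw [Nat.card_congr e, ← Set.ncard_image_of_injective _ e.injective, himg] at h0
    exact (hTbig q1).1 h0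
  have hgM : g ∈ M := by
    have h : (Quotient.mk _ (g • x₀) : Q) = Quotient.mk _ x₀ := hq
    rw [Quotient.eq, MulAction.orbitRel_apply, MulAction.mem_orbit_iff] at h
    obtain ⟨m, hm⟩ := h
    have h' : (m : P)⁻¹ * g ∈ MulAction.stabilizer P x₀ := by
      rw [MulAction.mem_stabilizer_iff, mul_smul, inv_smul_eq_iff]
      exact hm.symm
    simpa using M.mul_mem m.2 (hsM h')
  intro x
  have h := hT (Quotient.mk _ x) ⟨g, hgM⟩ (fun y => by
    rw [← hmemS, ← hmemS]; exact hg y.1) ⟨x, rfl⟩
  exact congrArg Subtype.val h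

end Cfsg.Agent.OrbitCover
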