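import Mathlib
import Cfsg.Agent.OrbitCover.Subsets
import Cfsg.Agent.OrbitCover.Extra

/-! An element of order `p` in a normal `p`-subgroup of a group acting on a coprime abelian group:
some vector is moved by all its conjugates (`p` odd). -/

set_option autoImplicit false
set_option linter.style.haveILetI false

open Subgroup

namespace Cfsg.Agent.OrbitCover

universe u

section Aux

variable {H V : Type*} [Group H] [CommGroup V] (ρ : H →* MulAut V)

/-- Restriction of an action to an invariant subgroup. -/
def resHom (W : Subgroup V) (hW : ∀ h, ∀ w ∈ W, ρ h w ∈ W) : H →* MulAut W where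
  toFun h :=
    { toFun := fun w => ⟨ρ h w, hW h w w.2⟩
      invFun := fun w => ⟨ρ h⁻¹ w, hW h⁻¹ w w.2⟩
      left_inv := fun w => Subtype.ext ((rho_mul ρ h⁻¹ h _).symm.trans
        ((congrArg (fun t => ρ t (w : V)) (inv_mul_cancel h)).trans (rho_one ρ _)))
      right_inv := fun w => Subtype.ext ((rho_mul ρ h h⁻¹ _).symm.trans
        ((congrArg (fun t => ρ t (w : V)) (mul_inv_cancel h)).trans (rho_one ρ _)))
      map_mul' := fun a b => Subtype.ext (map_mul (ρ h) _ _) }
  map_one' := MulEquiv.ext fun w => Subtype.ext (rho_one ρ _)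
  map_mul' a b := MulEquiv.ext fun w => Subtype.ext (rho_mul ρ a b _)

theorem resHom_apply (W : Subgroup V) (hW : ∀ h, ∀ w ∈ W, ρ h w ∈ W) (h : H) (w : W) :
    ((resHom ρ W hW h w : W) : V) = ρ h w := rfl

/-- Action on the quotient by an invariant subgroup. -/
def quotHom (W : Subgroup V) (hW : ∀ h, ∀ w ∈ W, ρ h w ∈ W) : H →* MulAut (V ⧸ W) where
  toFun h :=
    { toFun := QuotientGroup.map W W (ρ h).toMonoidHom (fun w hw => hW h w hw)
      invFun := QuotientGroup.map W W (ρ h⁻¹).toMonoidHom (fun w hw => hW h⁻¹ w hw)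
      left_inv := fun q => QuotientGroup.induction_on q fun v => congrArg (QuotientGroup.mk (s := W))
        ((rho_mul ρ h⁻¹ h v).symm.trans
          ((congrArg (fun t => ρ t v) (inv_mul_cancel h)).trans (rho_one ρ _)))
      right_inv := fun q => QuotientGroup.induction_on q fun v => congrArg (QuotientGroup.mk (s := W))
        ((rho_mul ρ h h⁻¹ v).symm.trans
          ((congrArg (fun t => ρ t v) (mul_inv_cancel h)).trans (rho_one ρ _)))
      map_mul' := map_mul _ }
  map_one' := MulEquiv.ext fun q => QuotientGroup.induction_on q fun v =>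
    congrArg (QuotientGroup.mk (s := W)) (rho_one ρ v)
  map_mul' a b := MulEquiv.ext fun q => QuotientGroup.induction_on q fun v =>
    congrArg (QuotientGroup.mk (s := W)) (rho_mul ρ a b v)

theorem quotHom_mk (W : Subgroup V) (hW : ∀ h, ∀ w ∈ W, ρ h w ∈ W) (h : H) (v : V) :
    quotHom ρ W hW h (v : V ⧸ W) = ((ρ h v : V) : V ⧸ W) := rfl

end Aux

variable {p : ℕ} [hp : Fact p.Prime]

theorem exists_moved_vector (hp2 : p ≠ 2) :
    ∀ (n : ℕ) (V : Type u) [CommGroup V] [Finite V], Nat.card V = n → ¬ p ∣ n →
      ∀ (H : Type u) [Group H] [Finite H] (ρ : H →* MulAut V) (P : Subgroup H), P.Normal →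
        IsPGroup p P → ∀ a ∈ P, a ^ p = 1 → ρ a ≠ 1 →
          ∃ v : V, ∀ x : H, ρ (x * a * x⁻¹) v ≠ v := by
  intro n
  induction n using Nat.strong_induction_on with
  | _ n ih => ?_
  intro V _ _ hn hpn H _ _ ρ P hPn hP a haP hap ha
  subst hn
  classical
  haveI : Nontrivial V := by
    by_contra h
    rw [not_nontrivial_iff_subsingleton] at h
    exact ha (MulEquiv.ext fun v => Subsingleton.elim _ _)
  -- the reducible case
  by_cases hred : ∃ W : Subgroup V, (∀ h, ∀ w ∈ W, ρ h w ∈ W) ∧ W ≠ ⊥ ∧ W ≠ ⊤
  · obtain ⟨W, hW, hW1, hW2⟩ := hred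
    have hmul := card_mul_index W
    rw [index_eq_card] at hmul
    have hW1' : 1 < Nat.card W := (one_lt_card_iff_ne_bot W).2 hW1
    have hQ1 : 1 < Nat.card (V ⧸ W) := by
      rw [← index_eq_card]; exact one_lt_index_of_ne_top hW2
    by_cases hresa : resHom ρ W hW a = 1
    · -- nontrivial on the quotient
      have hquot : quotHom ρ W hW a ≠ 1 := by
        intro hq
        apply ha
        refine MulEquiv.ext fun v => ?_
        rw [MulAut.one_apply]
        have hfix : ∀ w ∈ W, ρ a w = w := fun w hw => by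
          have h := congrArg Subtype.val (DFunLike.congr_fun hresa (⟨w, hw⟩ : W))
          rw [MulAut.one_apply] at h
          exact h
        have hv : v⁻¹ * ρ a v ∈ W := by
          have h := DFunLike.congr_fun hq (v : V ⧸ W)
          rw [quotHom_mk, MulAut.one_apply] at h
          exact QuotientGroup.eq.1 h.symm
        set w := v⁻¹ * ρ a v with hwdef
        have hav : ρ a v = v * w := by rw [hwdef, mul_inv_cancel_left]
        have hk : ∀ k : ℕ, ρ (a ^ k) v = v * w ^ k := by
          intro k
          induction k with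
          | zero => rw [pow_zero, rho_one, pow_zero, mul_one]
          | succ k ihk =>
            rw [pow_succ', rho_mul, ihk, map_mul, map_pow, hav, hfix w hv, pow_succ', mul_assoc]
        have hwp := hk p
        rw [hap, rho_one, left_eq_mul] at hwp
        have hw1 : w = 1 := by
          rw [← orderOf_eq_one_iff]
          exact Nat.eq_one_of_dvd_coprimes ((hp.out.coprime_iff_not_dvd.2 hpn).symm)
            (orderOf_dvd_natCard w) (orderOf_dvd_of_pow_eq_one hwp)
        rw [hav, hw1, mul_one]
      obtain ⟨q, hq⟩ := ih (Nat.card (V ⧸ W))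
        (by rw [← hmul]; exact lt_mul_of_one_lt_left (by omega) hW1') (V ⧸ W) rfl
        (fun h => hpn (hmul ▸ h.mul_left _)) H (quotHom ρ W hW) P hPn hP a haP hap hquot
      obtain ⟨v, rfl⟩ := QuotientGroup.mk_surjective q
      refine ⟨v, fun x hx => hq x ?_⟩
      rw [quotHom_mk, hx]
    · obtain ⟨w, hw⟩ := ih (Nat.card W)
        (by rw [← hmul]; exact lt_mul_of_one_lt_right (by omega) hQ1) W rfl
        (fun h => hpn (hmul ▸ h.mul_right _)) H (resHom ρ W hW) P hPn hP a haP hap hresa
      exact ⟨(w : V), fun x hx => hw x (Subtype.ext hx)⟩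
  push Not at hred
  -- reduce to a faithful action
  suffices key : ∀ (H : Type u) [Group H] [Finite H] (ρ : H →* MulAut V) (P : Subgroup H),
      Function.Injective ρ → P.Normal → IsPGroup p P → ∀ a : H, P = normalClosure {a} →
      a ^ p = 1 → a ≠ 1 → (∀ W : Subgroup V, (∀ h, ∀ w ∈ W, ρ h w ∈ W) → W ≠ ⊥ → W = ⊤) →
      ∃ v : V, ∀ x : H, ρ (x * a * x⁻¹) v ≠ v by
    have hsurj : Function.Surjective ρ.rangeRestrict := ρ.rangeRestrict_surjective
    haveI hP'n : (P.map ρ.rangeRestrict).Normal := hPn.map _ hsurj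
    have hle : normalClosure {ρ.rangeRestrict a} ≤ P.map ρ.rangeRestrict :=
      normalClosure_le_normal (Set.singleton_subset_iff.2 (mem_map_of_mem _ haP))
    obtain ⟨v, hv⟩ := key ρ.range (Subgroup.subtype _) (normalClosure {ρ.rangeRestrict a})
      (Subgroup.subtype_injective _) inferInstance ((hP.map _).to_le hle)
      (ρ.rangeRestrict a) rfl (by rw [← map_pow, hap, map_one])
      (fun h => ha (congrArg Subtype.val h))
      (fun W hW h1 => hred W (fun h w hw => hW (ρ.rangeRestrict h) w hw) h1)
    refine ⟨v, fun x hx => hv (ρ.rangeRestrict x) ?_⟩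
    rw [← map_inv, ← map_mul, ← map_mul]
    exact hx
  clear hred ha hap haP hP hPn a P ρ
  intro H _ _ ρ P hinj hPn hP a hPa hap ha1 hirr
  haveI := hPn
  have haP : a ∈ P := hPa ▸ subset_normalClosure rfl
  have hker : ∀ k : H, (∀ v, ρ k v = v) → k = 1 := fun k hk =>
    hinj (by rw [map_one]; exact MulEquiv.ext fun v => by rw [hk, MulAut.one_apply])
  -- non-trivial normal subgroups have no fixed points
  have hfixn : ∀ B : Subgroup H, B.Normal → B ≠ ⊥ → fixSub ρ B = ⊥ := by
    intro B hBn hB1
    by_contra h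
    have htop := hirr (fixSub ρ B) (fun g w hw => smul_mem_fixSub ρ
      (fun k hk => by simpa using hBn.conj_mem k hk g⁻¹) hw) h
    exact hB1 (eq_bot_iff.2 fun k hk => mem_bot.2 (hker k fun v =>
      (htop ▸ mem_top v : v ∈ fixSub ρ B) k hk))
  by_cases hbig : ∃ B : Subgroup H, B.Normal ∧ B ≤ P ∧ (∀ x ∈ B, ∀ y ∈ B, x * y = y * x) ∧
      (∀ x ∈ B, x ^ p = 1) ∧ p < Nat.card B
  · -- imprimitive
    obtain ⟨B, hBn, hBP, hBc, hBe, hBcard⟩ := hbig
    have hB1 : B ≠ ⊥ := by
      rintro rfl
      rw [card_bot] at hBcard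
      have := hp.out.one_lt
      omega
    have hB := hfixn B hBn hB1
    have hBp : IsPGroup p B := hP.to_le hBP
    obtain ⟨K₁, hK₁B, hK₁p, hK₁ne⟩ := exists_relIndex_fix ρ hpn hBp hBc hB hBe
    let ι := {K : Subgroup H // K ≤ B ∧ K.relIndex B = p ∧ fixSub ρ K ≠ ⊥}
    have hfmap : ∀ (g : H) (K : Subgroup H) (v : V), v ∈ fixSub ρ K →
        ρ g v ∈ fixSub ρ (K.map (MulAut.conj g).toMonoidHom) := by
      rintro g K v hv _ ⟨k, hk, rfl⟩
      show ρ (g * k * g⁻¹) (ρ g v) = ρ g v
      rw [← rho_mul, inv_mul_cancel_right, rho_mul, hv k hk]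
    have hsmul : ∀ (g : H) (K : ι), K.1.map (MulAut.conj g).toMonoidHom ≤ B ∧
        (K.1.map (MulAut.conj g).toMonoidHom).relIndex B = p ∧
        fixSub ρ (K.1.map (MulAut.conj g).toMonoidHom) ≠ ⊥ := by
      rintro g ⟨K, hKB, hKp, hKne⟩
      have hle : K.map (MulAut.conj g).toMonoidHom ≤ B := by
        rintro _ ⟨k, hk, rfl⟩
        exact hBn.conj_mem k (hKB hk) g
      refine ⟨hle, ?_, ?_⟩
      · have h1 := relIndex_mul_relIndex (⊥ : Subgroup H) K B bot_le hKB
        have h2 := relIndex_mul_relIndex (⊥ : Subgroup H) _ B bot_le hle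
        rw [relIndex_bot_left, relIndex_bot_left, hKp] at h1
        rw [relIndex_bot_left, relIndex_bot_left, ← h1,
          show Nat.card ↥(K.map (MulAut.conj g).toMonoidHom) = Nat.card K from
            card_map_of_injective (MulAut.conj g).injective] at h2
        exact Nat.eq_of_mul_eq_mul_left Nat.card_pos h2
      · obtain ⟨v, hv, hv1⟩ := (Subgroup.bot_or_exists_ne_one _).resolve_left hKne
        intro h
        have := hfmap g K v hv
        rw [h, mem_bot, map_eq_one_iff _ (ρ g).injective] at this
        exact hv1 this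
    letI act : MulAction H ι :=
      { smul := fun g K => ⟨K.1.map (MulAut.conj g).toMonoidHom, hsmul g K⟩
        one_smul := fun K => Subtype.ext (by
          show K.1.map (MulAut.conj 1).toMonoidHom = K.1
          rw [map_one]
          exact K.1.map_id)
        mul_smul := fun g h K => Subtype.ext (by
          show K.1.map (MulAut.conj (g * h)).toMonoidHom =
            (K.1.map (MulAut.conj h).toMonoidHom).map (MulAut.conj g).toMonoidHom
          rw [map_map, map_mul]
          rfl) }
    haveI : Fintype ι := Fintype.ofFinite ι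
    have hfsmul : ∀ (g : H) (K : ι) (v : V), v ∈ fixSub ρ K.1 → ρ g v ∈ fixSub ρ (g • K).1 :=
      fun g K v hv => hfmap g K.1 v hv
    have huniq : ∀ f f' : ι → V, (∀ i, f i ∈ fixSub ρ i.1) → (∀ i, f' i ∈ fixSub ρ i.1) →
        ∏ i, f i = ∏ i, f' i → ∀ i, f i = f' i := by
      intro f f' hf hf' h i
      have := indep ρ hpn hBp hBc hB (fun i : ι => i.1) Subtype.val_injective (fun i => i.2.1)
        (fun i => i.2.2.1) (fun i => f i / f' i) (fun i => div_mem (hf i) (hf' i))
        (by rw [Finset.prod_div_distrib]; exact div_eq_one.2 h) i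
      exact div_eq_one.1 this
    by_cases hmove : ∃ K : ι, a • K ≠ K
    · obtain ⟨K₀, hK₀⟩ := hmove
      obtain ⟨T, hT⟩ := exists_regular_subset hp2 (Nat.card ι) P hP ι rfl
      choose c hc hc1 using fun i : ι =>
        (Subgroup.bot_or_exists_ne_one (fixSub ρ i.1)).resolve_left i.2.2.2
      let f : ι → V := fun i => if i ∈ T then c i else 1
      have hf : ∀ i, f i ∈ fixSub ρ i.1 := by
        intro i
        simp only [f]
        split_ifs
        · exact hc i
        · exact one_mem _
      have hfT : ∀ i, f i ≠ 1 ↔ i ∈ T := by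
        intro i
        simp only [f]
        split_ifs with h
        · exact iff_of_true (hc1 i) h
        · exact iff_of_false (fun h' => h' rfl) h
      refine ⟨∏ i, f i, fun x hx => hK₀ ?_⟩
      set y := x * a * x⁻¹ with hy
      have heq := huniq (fun i => ρ y (f (y⁻¹ • i))) f
        (fun i => by simpa using hfsmul y (y⁻¹ • i) _ (hf _)) hf (by
          refine Eq.trans ?_ hx
          rw [map_prod]
          exact Fintype.prod_equiv (MulAction.toPerm y⁻¹) _ _ fun i => rfl)
      have hall := hT ⟨y, hPn.conj_mem a haP x⟩ (fun i => by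
        show y • i ∈ T ↔ i ∈ T
        rw [← hfT, ← hfT, ← heq (y • i), inv_smul_smul, map_ne_one_iff _ (ρ y).injective])
      have h := hall (x • K₀)
      change y • x • K₀ = x • K₀ at h
      rw [smul_smul, show y * x = x * a by rw [hy, inv_mul_cancel_right], ← smul_smul] at h
      exact smul_left_cancel x h
    · push Not at hmove
      obtain ⟨K₀, w₀, hw₀, haw₀⟩ : ∃ K : ι, ∃ w ∈ fixSub ρ K.1, ρ a w ≠ w := by
        by_contra hcon
        push Not at hcon
        apply ha1
        refine hker a fun v => ?_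
        have hU : ⨆ K : ι, fixSub ρ K.1 = ⊤ := by
          refine hirr _ (fun g w hw => ?_) ?_
          · induction hw using Subgroup.iSup_induction' with
            | hp K w hw => exact mem_iSup_of_mem (g • K) (hfsmul g K w hw)
            | h1 => rw [map_one]; exact one_mem _
            | hmul w w' _ _ hw hw' => rw [map_mul]; exact mul_mem hw hw'
          · intro h
            exact hK₁ne (eq_bot_iff.2 (h ▸ le_iSup (fun K : ι => fixSub ρ K.1)
              ⟨K₁, hK₁B, hK₁p, hK₁ne⟩))
        have hv : v ∈ ⨆ K : ι, fixSub ρ K.1 := hU ▸ mem_top v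
        induction hv using Subgroup.iSup_induction' with
        | hp K w hw => exact hcon K w hw
        | h1 => exact map_one _
        | hmul w w' _ _ hw hw' => rw [map_mul, hw, hw']
      set W₀ := fixSub ρ K₀.1 with hW₀
      set H₀ := MulAction.stabilizer H K₀ with hH₀
      have hinv : ∀ h : H₀, ∀ w ∈ W₀, (ρ.comp H₀.subtype) h w ∈ W₀ := by
        intro h w hw
        have := hfsmul (h : H) K₀ w hw
        rwa [show (h : H) • K₀ = K₀ from h.2] at this
      have hW₀top : W₀ ≠ ⊤ := by
        intro htop
        have hK0 : K₀.1 = ⊥ := eq_bot_iff.2 fun k hk => mem_bot.2 (hker k fun v =>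
          (htop ▸ mem_top v : v ∈ W₀) k hk)
        have h := K₀.2.2.1
        rw [hK0, relIndex_bot_left] at h
        omega
      have hlt : Nat.card W₀ < Nat.card V :=
        lt_of_le_of_ne (card_le_card_group W₀) fun h => hW₀top (eq_top_of_card_eq W₀ h)
      let a₀ : H₀ := ⟨a, hmove K₀⟩
      obtain ⟨v₀, hv₀⟩ := ih (Nat.card W₀) hlt W₀ rfl (fun h => hpn (h.trans (card_subgroup_dvd_card W₀)))
        H₀ (resHom (ρ.comp H₀.subtype) W₀ hinv) (P.subgroupOf H₀) inferInstance
        (hP.comap_of_injective _ (Subgroup.subtype_injective H₀)) a₀ haP (Subtype.ext hap)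
        (fun h => haw₀ (by
          have h' := congrArg Subtype.val (DFunLike.congr_fun h (⟨w₀, hw₀⟩ : W₀))
          rw [MulAut.one_apply] at h'
          exact h'))
      let f : ι → V := fun i => if h : ∃ t : H, t • K₀ = i then ρ h.choose v₀.1 else 1
      have hf : ∀ i, f i ∈ fixSub ρ i.1 := by
        intro i
        simp only [f]
        split_ifs with h
        · have := hfsmul h.choose K₀ v₀.1 v₀.2
          rwa [h.choose_spec] at this
        · exact one_mem _
      refine ⟨∏ i, f i, fun x hx => ?_⟩
      set y := x * a * x⁻¹ with hy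
      have hyfix : ∀ i : ι, y • i = i := fun i => by
        rw [hy, mul_smul, mul_smul, hmove, smul_inv_smul]
      have heq := huniq (fun i => ρ y (f i)) f
        (fun i => by
          have := hfsmul y i _ (hf i)
          rwa [hyfix i] at this) hf (by
          refine Eq.trans ?_ hx
          rw [map_prod]) (x • K₀)
      have hex : ∃ t : H, t • K₀ = x • K₀ := ⟨x, rfl⟩
      simp only [f, dif_pos hex] at heq
      set t := hex.choose with ht
      have hh : t⁻¹ * x ∈ H₀ := by
        rw [hH₀, MulAction.mem_stabilizer_iff, mul_smul, ← hex.choose_spec, ← ht, inv_smul_smul]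
      refine hv₀ ⟨t⁻¹ * x, hh⟩ (Subtype.ext ?_)
      show ρ ((t⁻¹ * x) * a * (t⁻¹ * x)⁻¹) v₀.1 = v₀.1
      rw [show (t⁻¹ * x) * a * (t⁻¹ * x)⁻¹ = t⁻¹ * (y * t) by rw [hy]; group, rho_mul, rho_mul,
        heq, ← rho_mul, inv_mul_cancel, rho_one]
  · -- primitive
    push Not at hbig
    set S : Set P := {s | ∃ x : H, x * a * x⁻¹ = (s : H)} with hS
    have hgen : closure S = ⊤ := by
      refine eq_top_iff.2 fun q _ => ?_
      have hle : P ≤ (closure S).map P.subtype := by
        rw [MonoidHom.map_closure]
        conv_lhs => rw [hPa]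
        refine closure_mono ?_
        intro z hz
        obtain ⟨b, hb0, hb⟩ := Group.mem_conjugatesOfSet_iff.1 hz
        rw [Set.mem_singleton_iff] at hb0
        rw [hb0] at hb
        obtain ⟨x, hx⟩ := isConj_iff.1 hb
        exact ⟨⟨z, hx ▸ hPn.conj_mem a haP x⟩, ⟨x, hx⟩, rfl⟩
      obtain ⟨q', hq', he⟩ := hle q.2
      rwa [← Subtype.ext he]
    have hSp : ∀ s ∈ S, s ^ p = 1 := by
      rintro s ⟨x, hx⟩
      refine Subtype.ext ?_
      rw [SubmonoidClass.coe_pow, ← hx, conj_pow, hap]
      simp
    obtain ⟨hcl, hexp, hZle⟩ := classTwo_exponent hP hp2 hgen hSp (fun D hD hDc hDe => by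
      haveI := hD
      have h := hbig (D.map P.subtype) inferInstance (map_subtype_le D)
        (by rintro _ ⟨u, hu, rfl⟩ _ ⟨w, hw, rfl⟩
            exact congrArg Subtype.val (hDc u hu w hw))
        (by rintro _ ⟨u, hu, rfl⟩
            exact congrArg Subtype.val (hDe u hu))
      rwa [card_map_of_injective (Subgroup.subtype_injective P)] at h)
    haveI : Nontrivial P := ⟨⟨⟨a, haP⟩, 1, fun h => ha1 (congrArg Subtype.val h)⟩⟩
    haveI := hP.center_nontrivial
    have hZ : Nat.card (center P) = p := by
      obtain ⟨k, hk⟩ := IsPGroup.iff_card.1 (hP.to_subgroup (center P))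
      refine le_antisymm hZle ?_
      rw [hk]
      refine Nat.le_self_pow (fun h0 => ?_) p
      have := Finite.one_lt_card (α := center P)
      rw [hk, h0, pow_zero] at this
      omega
    have hZne : (center P).map P.subtype ≠ ⊥ := by
      rw [Ne, map_eq_bot_iff_of_injective _ (Subgroup.subtype_injective P), ← card_eq_one, hZ]
      exact hp.out.ne_one
    have hZn : ((center P).map P.subtype).Normal := inferInstance
    have hZfix := hfixn _ hZn hZne
    by_cases haZ : a ∈ (center P).map P.subtype
    · obtain ⟨v, hv⟩ := exists_ne (1 : V)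
      refine ⟨v, fun x hx => hv ?_⟩
      set y := x * a * x⁻¹ with hy
      have hy1 : y ≠ 1 := by
        intro h
        rw [hy, mul_inv_eq_one, mul_eq_left] at h
        exact ha1 h
      have hyp : y ^ p = 1 := by rw [hy, conj_pow, hap]; simp
      have he : zpowers y = (center P).map P.subtype :=
        eq_of_le_of_card_ge (zpowers_le.2 (hZn.conj_mem a haZ x))
          (by rw [card_map_of_injective (Subgroup.subtype_injective P), hZ, Nat.card_zpowers,
            orderOf_eq_prime hyp hy1])
      have : v ∈ fixSub ρ (zpowers y) := by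
        intro k hk
        let U : Subgroup H :=
          { carrier := {h | ρ h v = v}
            one_mem' := rho_one ρ v
            mul_mem' := fun {a b} (ha : ρ a v = v) (hb : ρ b v = v) => by
              show ρ (a * b) v = v
              rw [rho_mul, hb, ha]
            inv_mem' := fun {a} (ha : ρ a v = v) => by
              show ρ a⁻¹ v = v
              nth_rewrite 1 [← ha]
              rw [← rho_mul, inv_mul_cancel, rho_one] }
        exact (zpowers_le.2 hx : zpowers y ≤ U) hk
      rwa [he, hZfix, mem_bot] at this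
    · have hfix' : fixSub (ρ.comp P.subtype) (center P) = ⊥ := by
        refine eq_bot_iff.2 fun v hv => hZfix ▸ ?_
        rintro _ ⟨k, hk, rfl⟩
        exact hv k hk
      obtain ⟨v, hv⟩ := exists_regular_vector (ρ.comp P.subtype) hP hp2 hcl hexp hZ hpn hfix'
      refine ⟨v, fun x hx => hv ⟨x * a * x⁻¹, hPn.conj_mem a haP x⟩ (fun hmem => haZ ?_) hx⟩
      have h := hZn.conj_mem _ (mem_map_of_mem P.subtype hmem) x⁻¹
      simpa [mul_assoc] using h

end Cfsg.Agent.OrbitCover
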