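import Mathlib
import Cfsg.Agent.Cores.Fitting
import Cfsg.Agent.OrbitCover.Main

/-! A `p`-subgroup generating `p`-groups with a conjugate from each class, solvable groups. -/

set_option autoImplicit false
set_option linter.style.haveILetI false

open Subgroup

namespace Cfsg.Agent.OrbitCover

universe u

theorem le_pCore_of_conj_isPGroup {p : ℕ} [hp : Fact p.Prime] (hp2 : p ≠ 2) :
    ∀ (n : ℕ) (G : Type u) [Group G] [Finite G], Nat.card G = n → Group.IsSolvable G →
      ∀ A : Subgroup G, IsPGroup p A →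
        (∀ c : G, ∃ g : G, IsConj c g ∧
          IsPGroup p ↥(A ⊔ A.map (MulAut.conj g).toMonoidHom)) →
        A ≤ Cfsg.pCore p G := by
  intro n
  induction n using Nat.strong_induction_on with
  | _ n ih => ?_
  intro G _ _ hn hG A hA h
  subst hn
  classical
  -- the hypothesis passes to quotients
  have hquot : ∀ (N : Subgroup G) [N.Normal], N ≠ ⊥ →
      A.map (QuotientGroup.mk' N) ≤ Cfsg.pCore p (G ⧸ N) := by
    intro N _ hN
    have hlt : Nat.card (G ⧸ N) < Nat.card G := by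
      rw [card_eq_card_quotient_mul_card_subgroup N]
      exact lt_mul_of_one_lt_right Nat.card_pos ((one_lt_card_iff_ne_bot N).2 hN)
    refine ih _ hlt (G ⧸ N) rfl inferInstance _ (hA.map _) fun c => ?_
    obtain ⟨c, rfl⟩ := QuotientGroup.mk'_surjective N c
    obtain ⟨g, hg, hJ⟩ := h c
    refine ⟨QuotientGroup.mk' N g, (QuotientGroup.mk' N).map_isConj hg, ?_⟩
    have := hJ.map (QuotientGroup.mk' N)
    rw [Subgroup.map_sup, map_map] at this
    rw [map_map]
    have he : (MulAut.conj (QuotientGroup.mk' N g)).toMonoidHom.comp (QuotientGroup.mk' N) =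
        (QuotientGroup.mk' N).comp (MulAut.conj g).toMonoidHom := MonoidHom.ext fun x => rfl
    rw [he]
    exact this
  by_cases hO : Cfsg.pCore p G = ⊥
  swap
  · have hle := hquot (Cfsg.pCore p G) hO
    rw [Cores.pCore_quotient_pCore_eq_bot, le_bot_iff, Subgroup.map_eq_bot_iff,
      QuotientGroup.ker_mk'] at hle
    exact hle
  by_contra hAne
  rw [hO, le_bot_iff] at hAne
  -- an element of order p in A
  obtain ⟨k, hk⟩ := IsPGroup.iff_card.1 hA
  have hk0 : k ≠ 0 := by
    rintro rfl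
    exact hAne (card_eq_one.1 (by rw [hk, pow_zero]))
  obtain ⟨⟨a, haA⟩, ha⟩ := exists_prime_orderOf_dvd_card' p (G := A) (hk ▸ dvd_pow_self p hk0)
  rw [orderOf_mk] at ha
  have hap : a ^ p = 1 := ha ▸ pow_orderOf_eq_one a
  have ha1 : a ≠ 1 := by rintro rfl; rw [orderOf_one] at ha; exact hp.out.ne_one ha.symm
  haveI := hG
  haveI : Nontrivial G := ⟨⟨a, 1, ha1⟩⟩
  obtain ⟨r, hr, hR⟩ := Cores.exists_pCore_ne_bot (G := G)
  haveI : Fact r.Prime := ⟨hr⟩
  have hrp : r ≠ p := by rintro rfl; exact hR hO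
  set R := Cfsg.pCore r G with hRdef
  set N : Subgroup G := (center R).map R.subtype with hNdef
  have hNn : N.Normal := inferInstance
  have hNp : IsPGroup r N := (Cores.pCore_isPGroup (p := r) (G := G)).to_le (map_subtype_le _)
  have hN1 : N ≠ ⊥ := by
    haveI : Nontrivial R := (nontrivial_iff_ne_bot R).2 hR
    haveI := (Cores.pCore_isPGroup (p := r) (G := G)).center_nontrivial
    rw [Ne, map_eq_bot_iff_of_injective _ (Subgroup.subtype_injective R)]
    exact (nontrivial_iff_ne_bot _).1 inferInstance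
  have hNc : ∀ x ∈ N, ∀ y ∈ N, x * y = y * x := by
    rintro _ ⟨x, hx, rfl⟩ _ ⟨y, _, rfl⟩
    exact congrArg Subtype.val (mem_center_iff.1 hx y).symm
  have hpN : ¬ p ∣ Nat.card N := by
    obtain ⟨j, hj⟩ := IsPGroup.iff_card.1 hNp
    rw [hj]
    exact fun h => hrp ((Nat.prime_dvd_prime_iff_eq hp.out hr).1 (hp.out.dvd_of_dvd_pow h)).symm
  letI : CommGroup N :=
    { (inferInstance : Group N) with mul_comm := fun x y => Subtype.ext (hNc x x.2 y y.2) }
  set M : Subgroup G := (Cfsg.pCore p (G ⧸ N)).comap (QuotientGroup.mk' N) with hMdef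
  have hMn : M.Normal := inferInstance
  have haM : a ∈ M := hquot N hN1 (mem_map_of_mem _ haA)
  have hMp : ∀ m ∈ M, ∃ j, m ^ p ^ j ∈ N := fun m hm => by
    obtain ⟨j, hj⟩ := Cores.pCore_isPGroup (p := p) (G := G ⧸ N) ⟨_, hm⟩
    exact ⟨j, (QuotientGroup.eq_one_iff _).1 (congrArg Subtype.val hj)⟩
  let φ : G →* MulAut N := MulAut.conjNormal
  by_cases hφa : φ a = 1
  · -- a centralises N, so lies in a nilpotent normal subgroup
    set K : Subgroup G := M ⊓ φ.ker with hK
    have hKn : K.Normal := inferInstance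
    have hNK : N ≤ K := by
      refine le_inf (fun x hx => ?_) (fun x hx => MulEquiv.ext fun y => Subtype.ext ?_)
      · rw [hMdef, mem_comap, QuotientGroup.mk'_apply, (QuotientGroup.eq_one_iff x).2 hx]
        exact one_mem _
      · show x * y * x⁻¹ = y
        rw [hNc x hx y y.2, mul_inv_cancel_right]
    let f : K →* G ⧸ N := (QuotientGroup.mk' N).comp K.subtype
    haveI : Group.IsNilpotent K := by
      haveI : Group.IsNilpotent f.range := by
        refine (IsPGroup.to_le (Cores.pCore_isPGroup (p := p) (G := G ⧸ N)) ?_).isNilpotent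
        rintro _ ⟨x, rfl⟩
        exact x.2.1
      refine Subgroup.isNilpotent_of_ker_le_center f.rangeRestrict (fun x hx => ?_)
      rw [MonoidHom.ker_rangeRestrict] at hx
      have hxN : (x : G) ∈ N := (QuotientGroup.eq_one_iff _).1 hx
      refine mem_center_iff.2 fun g => Subtype.ext ?_
      have := congrArg Subtype.val (DFunLike.congr_fun (g.2.2 : φ g = 1) ⟨x, hxN⟩)
      rw [MulAut.one_apply] at this
      exact mul_inv_eq_iff_eq_mul.1 this
    have hz : IsPGroup p (zpowers (⟨a, haM, hφa⟩ : K)) := by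
      refine IsPGroup.of_card (n := 1) ?_
      rw [Nat.card_zpowers, pow_one, ← ha, ← orderOf_coe]
    obtain ⟨P, hP⟩ := hz.exists_le_sylow
    haveI : (P : Subgroup K).Normal :=
      P.normal_of_normalizerCondition Group.normalizerCondition_of_isNilpotent
    haveI := P.characteristic_of_normal inferInstance
    have hle : (P : Subgroup K).map K.subtype ≤ Cfsg.pCore p G :=
      Cores.le_pCore inferInstance (P.isPGroup'.map _)
    have := hle (mem_map_of_mem K.subtype (hP (mem_zpowers _)))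
    rw [hO, mem_bot] at this
    exact ha1 this
  -- otherwise some vector is moved by all conjugates of a
  have hsurj := φ.rangeRestrict_surjective
  have hP'n : (M.map φ.rangeRestrict).Normal := hMn.map _ hsurj
  have hP'p : IsPGroup p (M.map φ.rangeRestrict) := by
    rintro ⟨_, m, hm, rfl⟩
    obtain ⟨j, hj⟩ := hMp m hm
    refine ⟨j, Subtype.ext (Subtype.ext (MulEquiv.ext fun y => Subtype.ext ?_))⟩
    simp only [SubmonoidClass.coe_pow, MonoidHom.coe_rangeRestrict, ← map_pow]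
    show m ^ p ^ j * y * (m ^ p ^ j)⁻¹ = y
    rw [hNc _ hj y y.2, mul_inv_cancel_right]
  obtain ⟨v, hv⟩ := exists_moved_vector hp2 (Nat.card N) N rfl hpN φ.range (Subgroup.subtype _)
    (M.map φ.rangeRestrict) hP'n hP'p (φ.rangeRestrict a) (mem_map_of_mem _ haM)
    (by rw [← map_pow, hap, map_one]) hφa
  obtain ⟨g, hg, hJ⟩ := h v
  obtain ⟨y, hy⟩ := isConj_iff.1 hg
  refine hv (φ.rangeRestrict y⁻¹) ?_
  show (φ y⁻¹ * φ a * (φ y⁻¹)⁻¹ : MulAut N) v = v
  rw [← map_inv, ← map_mul, ← map_mul]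
  have hgN : g ∈ N := hy ▸ hNn.conj_mem v v.2 y
  have hcJ : g * a * g⁻¹ * a⁻¹ ∈ A ⊔ A.map (MulAut.conj g).toMonoidHom :=
    mul_mem (mem_sup_right ⟨a, haA, rfl⟩) (inv_mem (mem_sup_left haA))
  have hcN : g * a * g⁻¹ * a⁻¹ ∈ N := by
    rw [mul_assoc, mul_assoc, ← mul_assoc a]
    exact mul_mem hgN (hNn.conj_mem _ (inv_mem hgN) a)
  have hc1 : g * a * g⁻¹ * a⁻¹ = 1 := by
    obtain ⟨j, hj⟩ := hJ ⟨_, hcJ⟩
    have hj' : (g * a * g⁻¹ * a⁻¹) ^ p ^ j = 1 := congrArg Subtype.val hj
    rw [← orderOf_eq_one_iff]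
    have hd : orderOf (g * a * g⁻¹ * a⁻¹) ∣ Nat.card N := by
      rw [← orderOf_mk _ hcN]; exact orderOf_dvd_natCard _
    exact Nat.eq_one_of_dvd_coprimes
      (Nat.Coprime.pow_left j (hp.out.coprime_iff_not_dvd.2 hpN))
      (orderOf_dvd_of_pow_eq_one hj') hd
  refine Subtype.ext ?_
  show y⁻¹ * a * y⁻¹⁻¹ * (v : G) * (y⁻¹ * a * y⁻¹⁻¹)⁻¹ = v
  have hga : g * a = a * g := by
    rw [mul_inv_eq_one, mul_inv_eq_iff_eq_mul] at hc1
    exact hc1
  rw [mul_inv_eq_iff_eq_mul]
  calc y⁻¹ * a * y⁻¹⁻¹ * (v : G) = y⁻¹ * (a * g) * y := by rw [← hy]; group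
    _ = y⁻¹ * (g * a) * y := by rw [hga]
    _ = (v : G) * (y⁻¹ * a * y⁻¹⁻¹) := by rw [← hy]; group

end Cfsg.Agent.OrbitCover
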